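import Mathlib

set_option autoImplicit false

namespace Cfsg.Agent.Lib.Helper19.AbelPerm

/-- the largest product of positive integers with a given sum -/
def mp : ℕ → ℕ
  | 0 => 1
  | 1 => 1
  | 2 => 2
  | 3 => 3
  | 4 => 4
  | (n + 5) => 3 * mp (n + 2)

theorem mp_step (n : ℕ) : mp (n + 5) = 3 * mp (n + 2) := by rw [mp]

theorem mp_facts (n : ℕ) : mp n ≤ mp (n + 1) ∧ 2 * mp n ≤ mp (n + 2) ∧ 3 * mp n ≤ mp (n + 3) := by
  induction n using Nat.strong_induction_on with
  | _ n ih =>
    match n with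
    | 0 => simp [mp]
    | 1 => simp [mp]
    | 2 => simp [mp]
    | 3 => simp [mp]
    | 4 => simp [mp]
    | (m + 5) =>
      obtain ⟨h1, h2, h3⟩ := ih (m + 2) (by omega)
      have e1 := mp_step m
      have e2 := mp_step (m + 1)
      have e3 := mp_step (m + 2)
      have e4 := mp_step (m + 3)
      rw [show m + 5 + 1 = m + 1 + 5 by omega, show m + 5 + 2 = m + 2 + 5 by omega,
        show m + 5 + 3 = m + 3 + 5 by omega, e1, e2, e3, e4]
      rw [show m + 1 + 2 = m + 2 + 1 by omega, show m + 3 + 2 = m + 2 + 3 by omega]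
      omega

theorem mul_mp_le (a : ℕ) : ∀ m, a * mp m ≤ mp (a + m) := by
  induction a using Nat.strong_induction_on with
  | _ a ih =>
    intro m
    match a with
    | 0 => simp
    | 1 => rw [one_mul, add_comm]; exact (mp_facts m).1
    | 2 => rw [add_comm]; exact (mp_facts m).2.1
    | 3 => rw [add_comm]; exact (mp_facts m).2.2
    | 4 =>
      have h1 := (mp_facts m).2.1
      have h2 := (mp_facts (m + 2)).2.1
      rw [show 4 + m = m + 2 + 2 by omega]
      omega
    | (b + 5) =>
      have h1 := ih (b + 2) (by omega) m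
      have h2 := (mp_facts (b + 2 + m)).2.2
      rw [show b + 5 + m = b + 2 + m + 3 by omega]
      calc (b + 5) * mp m ≤ 3 * ((b + 2) * mp m) := by nlinarith [Nat.zero_le (mp m), Nat.zero_le (b * mp m)]
        _ ≤ 3 * mp (b + 2 + m) := by omega
        _ ≤ _ := h2

theorem prod_le_mp {ι : Type*} (t : Finset ι) (s : ι → ℕ) : ∏ i ∈ t, s i ≤ mp (∑ i ∈ t, s i) := by
  classical
  induction t using Finset.induction_on with
  | empty => simp [mp]
  | insert a t ha ih =>
    rw [Finset.prod_insert ha, Finset.sum_insert ha]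
    exact (Nat.mul_le_mul_left _ ih).trans (mul_mp_le _ _)

theorem mp_three_mul (k : ℕ) : mp (3 * k) = 3 ^ k := by
  induction k with
  | zero => simp [mp]
  | succ k ih =>
    match k with
    | 0 => simp [mp]
    | (j + 1) =>
      rw [show 3 * (j + 1 + 1) = 3 * j + 1 + 5 by omega, mp_step,
        show 3 * j + 1 + 2 = 3 * (j + 1) by omega, ih, pow_succ (n := j + 1)]
      omega

theorem mp_three_mul_add_one (k : ℕ) (hk : 1 ≤ k) : mp (3 * k + 1) = 4 * 3 ^ (k - 1) := by
  induction k with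
  | zero => omega
  | succ k ih =>
    match k with
    | 0 => simp [mp]
    | (j + 1) =>
      rw [show 3 * (j + 1 + 1) + 1 = 3 * j + 2 + 5 by omega, mp_step,
        show 3 * j + 2 + 2 = 3 * (j + 1) + 1 by omega, ih (by omega)]
      simp only [Nat.add_sub_cancel]
      rw [pow_succ]
      omega

theorem mp_three_mul_add_two (k : ℕ) : mp (3 * k + 2) = 2 * 3 ^ k := by
  induction k with
  | zero => simp [mp]
  | succ k ih =>
    rw [show 3 * (k + 1) + 2 = 3 * k + 5 by omega, mp_step, ih, pow_succ]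
    omega

/-- an abelian permutation group is no larger than the product of its orbit lengths -/
theorem card_le_mp {α : Type*} [Fintype α] (A : Subgroup (Equiv.Perm α))
    (hA : ∀ a ∈ A, ∀ b ∈ A, a * b = b * a) : Nat.card A ≤ mp (Fintype.card α) := by
  classical
  haveI : Fintype (MulAction.orbitRel.Quotient A α) := Fintype.ofFinite _
  have h1 : Nat.card A ≤ ∏ ω : MulAction.orbitRel.Quotient A α, Nat.card (MulAction.orbit A ω.out) := by
    rw [← Nat.card_pi]
    apply Nat.card_le_card_of_injective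
      (fun (a : A) (ω : MulAction.orbitRel.Quotient A α) =>
        (⟨a • ω.out, MulAction.mem_orbit _ _⟩ : MulAction.orbit A ω.out))
    intro a b hab
    apply Subtype.ext
    apply Equiv.ext
    intro y
    obtain ⟨ω, hω⟩ : ∃ ω : MulAction.orbitRel.Quotient A α, y ∈ MulAction.orbit A ω.out := by
      refine ⟨Quotient.mk'' y, ?_⟩
      have h2 : (Quotient.mk'' (Quotient.mk'' y : MulAction.orbitRel.Quotient A α).out :
        MulAction.orbitRel.Quotient A α) = Quotient.mk'' y := Quotient.out_eq' _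
      rw [Quotient.eq'', MulAction.orbitRel_apply] at h2
      exact MulAction.mem_orbit_symm.1 h2
    obtain ⟨c, rfl⟩ := hω
    have h3 : a • ω.out = b • ω.out := congrArg Subtype.val (congrFun hab ω)
    have h3' : (a : Equiv.Perm α) ω.out = (b : Equiv.Perm α) ω.out := h3
    show (a : Equiv.Perm α) ((c : Equiv.Perm α) ω.out) = (b : Equiv.Perm α) ((c : Equiv.Perm α) ω.out)
    rw [← Equiv.Perm.mul_apply, ← Equiv.Perm.mul_apply, hA a a.2 c c.2, hA b b.2 c c.2,
      Equiv.Perm.mul_apply, Equiv.Perm.mul_apply, h3']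
  have h2 : ∑ ω : MulAction.orbitRel.Quotient A α, Nat.card (MulAction.orbit A ω.out) =
      Fintype.card α := by
    rw [← Nat.card_sigma, ← Nat.card_eq_fintype_card]
    exact (Nat.card_congr (MulAction.selfEquivSigmaOrbits A α)).symm
  rw [← h2]
  exact h1.trans (prod_le_mp _ _)

/-- existence of an abelian subgroup of `S_n` of order `c` -/
def Ex (n c : ℕ) : Prop :=
  ∃ A : Subgroup (Equiv.Perm (Fin n)), (∀ a ∈ A, ∀ b ∈ A, a * b = b * a) ∧ Nat.card A = c

theorem ex_add {n m c d : ℕ} (h1 : Ex n c) (h2 : Ex m d) : Ex (n + m) (c * d) := by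
  obtain ⟨A, hA, hAc⟩ := h1
  obtain ⟨B, hB, hBc⟩ := h2
  let f : Equiv.Perm (Fin n) × Equiv.Perm (Fin m) →* Equiv.Perm (Fin (n + m)) :=
    (finSumFinEquiv.permCongrHom.toMonoidHom).comp (Equiv.Perm.sumCongrHom (Fin n) (Fin m))
  have hf : Function.Injective f :=
    (finSumFinEquiv.permCongrHom.injective).comp Equiv.Perm.sumCongrHom_injective
  refine ⟨(A.prod B).map f, ?_, ?_⟩
  · rintro _ ⟨⟨a, b⟩, ⟨ha, hb⟩, rfl⟩ _ ⟨⟨a', b'⟩, ⟨ha', hb'⟩, rfl⟩
    rw [← map_mul, ← map_mul]
    congr 1
    exact Prod.ext (hA a ha a' ha') (hB b hb b' hb')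
  · rw [Subgroup.card_map_of_injective hf, ← hAc, ← hBc, ← Nat.card_prod]
    exact Nat.card_congr (Subgroup.prodEquiv A B).toEquiv

theorem ex_zpowers {n : ℕ} (g : Equiv.Perm (Fin n)) : Ex n (orderOf g) := by
  refine ⟨Subgroup.zpowers g, ?_, Nat.card_zpowers g⟩
  rintro _ ⟨i, rfl⟩ _ ⟨j, rfl⟩
  show g ^ i * g ^ j = g ^ j * g ^ i
  rw [← zpow_add, ← zpow_add, add_comm]

theorem ex_two : Ex 2 2 := by
  have h : orderOf (finRotate 2) = 2 := orderOf_eq_prime (by decide) (by decide)
  have := ex_zpowers (finRotate 2)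
  rwa [h] at this

theorem ex_three : Ex 3 3 := by
  haveI : Fact (Nat.Prime 3) := ⟨by norm_num⟩
  have h : orderOf (finRotate 3) = 3 := orderOf_eq_prime (by decide) (by decide)
  have := ex_zpowers (finRotate 3)
  rwa [h] at this

theorem ex_four : Ex 4 4 := ex_add ex_two ex_two

theorem ex_zero : Ex 0 1 := ⟨⊥, by
  intro a ha b hb
  rw [Subgroup.mem_bot] at ha hb
  rw [ha, hb], by simp⟩

theorem ex_three_mul (k : ℕ) : Ex (3 * k) (3 ^ k) := by
  induction k with
  | zero => exact ex_zero
  | succ k ih =>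
    have := ex_add ih ex_three
    rwa [← pow_succ] at this

end Cfsg.Agent.Lib.Helper19.AbelPerm
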