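import Mathlib
import Cfsg.Agent.Lib.Helper19.AbelPerm

set_option autoImplicit false

namespace Cfsg.Agent.Lib.Helper19.AbelPerm

/-- the largest product of positive integers different from two with a given sum -/
def mq : ℕ → ℕ
  | 0 => 1
  | 1 => 1
  | 2 => 1
  | 3 => 3
  | 4 => 4
  | 5 => 5
  | 6 => 9
  | 7 => 12
  | 8 => 16
  | (n + 9) => 3 * mq (n + 6)

theorem mq_step (n : ℕ) : mq (n + 9) = 3 * mq (n + 6) := by rw [mq]

theorem mq_facts (n : ℕ) : mq n ≤ mq (n + 1) ∧ 3 * mq n ≤ mq (n + 3) ∧ 4 * mq n ≤ mq (n + 4) ∧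
    5 * mq n ≤ mq (n + 5) := by
  induction n using Nat.strong_induction_on with
  | _ n ih =>
    match n with
    | 0 => simp [mq]
    | 1 => simp [mq]
    | 2 => simp [mq]
    | 3 => simp [mq]
    | 4 => simp [mq]
    | 5 => simp [mq]
    | 6 => simp [mq]
    | 7 => simp [mq]
    | 8 => simp [mq]
    | (m + 9) =>
      obtain ⟨h1, h2, h3, h4⟩ := ih (m + 6) (by omega)
      have e1 := mq_step m
      have e2 := mq_step (m + 1)
      have e3 := mq_step (m + 3)
      have e4 := mq_step (m + 4)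
      have e5 := mq_step (m + 5)
      rw [show m + 9 + 1 = m + 1 + 9 by omega, show m + 9 + 3 = m + 3 + 9 by omega,
        show m + 9 + 4 = m + 4 + 9 by omega, show m + 9 + 5 = m + 5 + 9 by omega, e1, e2, e3, e4, e5]
      rw [show m + 1 + 6 = m + 6 + 1 by omega, show m + 3 + 6 = m + 6 + 3 by omega,
        show m + 4 + 6 = m + 6 + 4 by omega, show m + 5 + 6 = m + 6 + 5 by omega]
      omega

theorem mul_mq_le (a : ℕ) : a ≠ 2 → ∀ m, a * mq m ≤ mq (a + m) := by
  induction a using Nat.strong_induction_on with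
  | _ a ih =>
    intro ha m
    match a with
    | 0 => simp
    | 1 => rw [one_mul, add_comm]; exact (mq_facts m).1
    | 2 => exact absurd rfl ha
    | 3 => rw [add_comm]; exact (mq_facts m).2.1
    | 4 => rw [add_comm]; exact (mq_facts m).2.2.1
    | 5 => rw [add_comm]; exact (mq_facts m).2.2.2
    | (b + 6) =>
      have h1 := ih (b + 3) (by omega) (by omega) m
      have h2 := (mq_facts (b + 3 + m)).2.1
      rw [show b + 6 + m = b + 3 + m + 3 by omega]
      calc (b + 6) * mq m ≤ 3 * ((b + 3) * mq m) := by nlinarith [Nat.zero_le (mq m), Nat.zero_le (b * mq m)]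
        _ ≤ 3 * mq (b + 3 + m) := by omega
        _ ≤ _ := h2

theorem prod_le_mq {ι : Type*} (t : Finset ι) (s : ι → ℕ) (hs : ∀ i ∈ t, s i ≠ 2) :
    ∏ i ∈ t, s i ≤ mq (∑ i ∈ t, s i) := by
  classical
  induction t using Finset.induction_on with
  | empty => simp [mq]
  | insert a t ha ih =>
    rw [Finset.prod_insert ha, Finset.sum_insert ha]
    exact (Nat.mul_le_mul_left _ (ih (fun i hi => hs i (Finset.mem_insert_of_mem hi)))).trans
      (mul_mq_le _ (hs a (Finset.mem_insert_self a t)) _)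

theorem mq_three_mul_add_two (k : ℕ) (hk : 2 ≤ k) : mq (3 * k + 2) = 16 * 3 ^ (k - 2) := by
  induction k with
  | zero => omega
  | succ k ih =>
    match k with
    | 0 => omega
    | 1 => simp [mq]
    | (j + 2) =>
      rw [show 3 * (j + 2 + 1) + 2 = 3 * j + 2 + 9 by omega, mq_step,
        show 3 * j + 2 + 6 = 3 * (j + 2) + 2 by omega, ih (by omega)]
      rw [show j + 2 + 1 - 2 = (j + 2 - 2) + 1 by omega, pow_succ]
      omega

theorem mp_mono : Monotone mp := monotone_nat_of_le_succ (fun n => (mp_facts n).1)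

theorem two_even_bound (f m : ℕ) (hf : 1 ≤ f) : 2 * (2 * f) * mp m ≤ 4 * mp (m + 2 * f - 2) := by
  have h1 : f * mp m ≤ mp (m + 2 * f - 2) := by
    rcases Nat.eq_or_lt_of_le hf with h | h
    · rw [← h]
      simp
    · exact (mul_mp_le f m).trans (mp_mono (by omega))
  calc 2 * (2 * f) * mp m = 4 * (f * mp m) := by ring
    _ ≤ _ := by omega

section orb
variable {α : Type*} [Fintype α] (A : Subgroup (Equiv.Perm α))

theorem mem_orbit_out (y : α) :
    y ∈ MulAction.orbit A (Quotient.mk'' y : MulAction.orbitRel.Quotient A α).out := by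
  have h2 : (Quotient.mk'' (Quotient.mk'' y : MulAction.orbitRel.Quotient A α).out :
    MulAction.orbitRel.Quotient A α) = Quotient.mk'' y := Quotient.out_eq' _
  rw [Quotient.eq'', MulAction.orbitRel_apply] at h2
  exact MulAction.mem_orbit_symm.1 h2

theorem card_le_prod (hA : ∀ a ∈ A, ∀ b ∈ A, a * b = b * a)
    [Fintype (MulAction.orbitRel.Quotient A α)] :
    Nat.card A ≤ ∏ ω : MulAction.orbitRel.Quotient A α, Nat.card (MulAction.orbit A ω.out) := by
  classical
  rw [← Nat.card_pi]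
  apply Nat.card_le_card_of_injective
    (fun (a : A) (ω : MulAction.orbitRel.Quotient A α) =>
      (⟨a • ω.out, MulAction.mem_orbit _ _⟩ : MulAction.orbit A ω.out))
  intro a b hab
  apply Subtype.ext
  apply Equiv.ext
  intro y
  obtain ⟨c, hc⟩ := mem_orbit_out A y
  obtain ⟨ω, hω⟩ : ∃ ω : MulAction.orbitRel.Quotient A α, ω = Quotient.mk'' y := ⟨_, rfl⟩
  rw [← hω] at hc
  rw [← hc]
  have h3 : a • ω.out = b • ω.out := congrArg Subtype.val (congrFun hab ω)
  have h3' : (a : Equiv.Perm α) ω.out = (b : Equiv.Perm α) ω.out := h3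
  show (a : Equiv.Perm α) ((c : Equiv.Perm α) ω.out) = (b : Equiv.Perm α) ((c : Equiv.Perm α) ω.out)
  rw [← Equiv.Perm.mul_apply, ← Equiv.Perm.mul_apply, hA a a.2 c c.2, hA b b.2 c c.2,
    Equiv.Perm.mul_apply, Equiv.Perm.mul_apply, h3']

theorem sum_orbits [Fintype (MulAction.orbitRel.Quotient A α)] :
    ∑ ω : MulAction.orbitRel.Quotient A α, Nat.card (MulAction.orbit A ω.out) = Fintype.card α := by
  rw [← Nat.card_sigma, ← Nat.card_eq_fintype_card]
  exact (Nat.card_congr (MulAction.selfEquivSigmaOrbits A α)).symm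

theorem pow_odd_swap {β : Type*} (σ : Equiv.Perm β) {x y : β} (h1 : σ x = y) (h2 : σ y = x) {m : ℕ}
    (hm : Odd m) : (σ ^ m) x = y ∧ (σ ^ m) y = x := by
  obtain ⟨j, rfl⟩ := hm
  have hx : (σ ^ 2) x = x := by rw [pow_two, Equiv.Perm.mul_apply, h1, h2]
  have hy : (σ ^ 2) y = y := by rw [pow_two, Equiv.Perm.mul_apply, h2, h1]
  rw [pow_succ, pow_mul]
  exact ⟨by rw [Equiv.Perm.mul_apply, h1]; exact Equiv.Perm.pow_apply_eq_self_of_apply_eq_self hy j,
    by rw [Equiv.Perm.mul_apply, h2]; exact Equiv.Perm.pow_apply_eq_self_of_apply_eq_self hx j⟩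

theorem no_single_two [DecidableEq α] (hA : ∀ a ∈ A, ∀ b ∈ A, a * b = b * a)
    (hev : ∀ a ∈ A, Equiv.Perm.sign a = 1) (x : α)
    (hx : Nat.card (MulAction.orbit A x) = 2)
    (hodd : ∀ z, z ∉ MulAction.orbit A x → Odd (Nat.card (MulAction.orbit A z))) : False := by
  have hxmem : x ∈ MulAction.orbit A x := MulAction.mem_orbit_self x
  obtain ⟨y, hyx, huniq⟩ := (Nat.card_eq_two_iff' (⟨x, hxmem⟩ : MulAction.orbit A x)).1 hx
  obtain ⟨a, ha⟩ := y.2
  have ha1 : (a : Equiv.Perm α) x = y.1 := ha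
  have hyx' : y.1 ≠ x := fun h => hyx (Subtype.ext h)
  have ha2 : (a : Equiv.Perm α) y.1 = x := by
    by_contra hcon
    have h1 : (⟨a • y.1, MulAction.mem_orbit_of_mem_orbit a y.2⟩ : MulAction.orbit A x) = y :=
      huniq _ (fun h => hcon (congrArg Subtype.val h))
    have h2 : (a : Equiv.Perm α) y.1 = y.1 := congrArg Subtype.val h1
    rw [← ha1] at h2
    exact hyx' (ha1 ▸ ((a : Equiv.Perm α).injective h2))
  obtain ⟨e, m, hm, hem⟩ := Nat.exists_eq_two_pow_mul_odd (orderOf_pos a).ne'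
  obtain ⟨b, hb⟩ : ∃ b : A, b = a ^ m := ⟨_, rfl⟩
  have hbpow : b ^ 2 ^ e = 1 := by
    rw [hb, ← pow_mul, mul_comm, ← hem]
    exact pow_orderOf_eq_one a
  have hP : IsPGroup 2 (Subgroup.zpowers b) := by
    obtain ⟨j, -, hj⟩ := (Nat.dvd_prime_pow Nat.prime_two).1 (orderOf_dvd_of_pow_eq_one hbpow)
    exact IsPGroup.of_card (n := j) (by rw [Nat.card_zpowers, hj])
  have hbval : (b : Equiv.Perm α) = (a : Equiv.Perm α) ^ m := by rw [hb]; rfl
  obtain ⟨hb1, hb2⟩ := pow_odd_swap (a : Equiv.Perm α) ha1 ha2 hm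
  have hfix : ∀ z, z ∉ MulAction.orbit A x → (b : Equiv.Perm α) z = z := by
    intro z hz
    haveI : Fact (Nat.Prime 2) := ⟨Nat.prime_two⟩
    obtain ⟨⟨z', hz'⟩, hf⟩ := hP.nonempty_fixed_point_of_prime_not_dvd_card (MulAction.orbit A z)
      (by
        have := hodd z hz
        intro h
        exact (Nat.not_even_iff_odd.2 this) (even_iff_two_dvd.2 h))
    have h1 : (b : Equiv.Perm α) z' = z' :=
      congrArg Subtype.val (hf ⟨b, Subgroup.mem_zpowers b⟩)
    obtain ⟨c, hc⟩ := hz'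
    have hc' : (c : Equiv.Perm α) z = z' := hc
    rw [← hc', ← Equiv.Perm.mul_apply, hA b b.2 c c.2, Equiv.Perm.mul_apply] at h1
    exact (c : Equiv.Perm α).injective h1
  have hswap : (b : Equiv.Perm α) = Equiv.swap x y.1 := by
    apply Equiv.ext
    intro z
    by_cases hzx : z = x
    · rw [hzx, Equiv.swap_apply_left, hbval, hb1]
    · by_cases hzy : z = y.1
      · rw [hzy, Equiv.swap_apply_right, hbval, hb2]
      · rw [Equiv.swap_apply_of_ne_of_ne hzx hzy]
        apply hfix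
        intro hz
        exact hzy (congrArg Subtype.val (huniq ⟨z, hz⟩ (fun h => hzx (congrArg Subtype.val h))))
  have h1 := hev b b.2
  rw [hswap, Equiv.Perm.sign_swap (Ne.symm hyx')] at h1
  exact absurd h1 (by decide)

theorem card_le_of_even [DecidableEq α] (k : ℕ) (hk : 2 ≤ k) (hn : Fintype.card α = 3 * k + 2)
    (hA : ∀ a ∈ A, ∀ b ∈ A, a * b = b * a) (hev : ∀ a ∈ A, Equiv.Perm.sign a = 1) :
    Nat.card A ≤ 16 * 3 ^ (k - 2) := by
  classical
  haveI : Fintype (MulAction.orbitRel.Quotient A α) := Fintype.ofFinite _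
  have h1 := card_le_prod A hA
  have h2 := sum_orbits A
  obtain ⟨s, hs⟩ : ∃ s : MulAction.orbitRel.Quotient A α → ℕ,
    s = fun ω => Nat.card (MulAction.orbit A ω.out) := ⟨_, rfl⟩
  have h1' : Nat.card A ≤ ∏ ω, s ω := by rw [hs]; exact h1
  have h2' : ∑ ω, s ω = 3 * k + 2 := by rw [hs, ← hn]; exact h2
  by_cases c1 : ∃ ω, s ω = 2
  · obtain ⟨ω₁, hω₁⟩ := c1
    by_cases c2 : ∃ ω₂, ω₂ ≠ ω₁ ∧ Even (s ω₂)
    · obtain ⟨ω₂, hne, f, hf⟩ := c2
      have hpos : 1 ≤ f := by
        have : 0 < s ω₂ := by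
          rw [hs]
          haveI : Nonempty (MulAction.orbit A ω₂.out) := ⟨⟨_, MulAction.mem_orbit_self _⟩⟩
          exact Nat.card_pos
        omega
      have e1 : ∏ ω, s ω = s ω₁ * (s ω₂ * ∏ ω ∈ (Finset.univ.erase ω₁).erase ω₂, s ω) := by
        rw [Finset.mul_prod_erase _ _ (by simp [hne]), Finset.mul_prod_erase _ _ (Finset.mem_univ _)]
      have e2 : ∑ ω, s ω = s ω₁ + (s ω₂ + ∑ ω ∈ (Finset.univ.erase ω₁).erase ω₂, s ω) := by
        rw [Finset.add_sum_erase _ _ (by simp [hne]), Finset.add_sum_erase _ _ (Finset.mem_univ _)]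
      have e3 := prod_le_mp ((Finset.univ.erase ω₁).erase ω₂) s
      obtain ⟨m, hm⟩ : ∃ m, m = ∑ ω ∈ (Finset.univ.erase ω₁).erase ω₂, s ω := ⟨_, rfl⟩
      rw [← hm] at e2 e3
      have h3 := two_even_bound f m hpos
      rw [show m + 2 * f - 2 = 3 * (k - 1) + 1 by omega, mp_three_mul_add_one (k - 1) (by omega)] at h3
      calc Nat.card A ≤ ∏ ω, s ω := h1'
        _ = 2 * (2 * f) * ∏ ω ∈ (Finset.univ.erase ω₁).erase ω₂, s ω := by
          rw [e1, hω₁, hf]; ring
        _ ≤ 2 * (2 * f) * mp m := Nat.mul_le_mul_left _ e3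
        _ ≤ 4 * (4 * 3 ^ (k - 1 - 1)) := h3
        _ = 16 * 3 ^ (k - 2) := by rw [show k - 1 - 1 = k - 2 by omega]; ring
    · exfalso
      push Not at c2
      rw [hs] at hω₁
      apply no_single_two A hA hev ω₁.out hω₁
      intro z hz
      have hz' := mem_orbit_out A z
      have hne : (Quotient.mk'' z : MulAction.orbitRel.Quotient A α) ≠ ω₁ := by
        intro h
        apply hz
        rw [← h]
        exact hz'
      have h3 := c2 _ hne
      rw [Nat.not_even_iff_odd, hs] at h3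
      have heq : MulAction.orbit A z =
          MulAction.orbit A (Quotient.mk'' z : MulAction.orbitRel.Quotient A α).out :=
        MulAction.orbit_eq_iff.2 hz'
      rw [heq]
      exact h3
  · push Not at c1
    have h3 := prod_le_mq Finset.univ s (fun i _ => c1 i)
    rw [h2', mq_three_mul_add_two k hk] at h3
    exact h1'.trans h3

end orb

/-- existence of an abelian subgroup of `A_n` of order `c` -/
def ExA (n c : ℕ) : Prop :=
  ∃ A : Subgroup (Equiv.Perm (Fin n)), (∀ a ∈ A, ∀ b ∈ A, a * b = b * a) ∧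
    (∀ a ∈ A, Equiv.Perm.sign a = 1) ∧ Nat.card A = c

theorem exA_add {n m c d : ℕ} (h1 : ExA n c) (h2 : ExA m d) : ExA (n + m) (c * d) := by
  obtain ⟨A, hA, hAs, hAc⟩ := h1
  obtain ⟨B, hB, hBs, hBc⟩ := h2
  let f : Equiv.Perm (Fin n) × Equiv.Perm (Fin m) →* Equiv.Perm (Fin (n + m)) :=
    (finSumFinEquiv.permCongrHom.toMonoidHom).comp (Equiv.Perm.sumCongrHom (Fin n) (Fin m))
  have hf : Function.Injective f :=
    (finSumFinEquiv.permCongrHom.injective).comp Equiv.Perm.sumCongrHom_injective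
  refine ⟨(A.prod B).map f, ?_, ?_, ?_⟩
  · rintro _ ⟨⟨a, b⟩, ⟨ha, hb⟩, rfl⟩ _ ⟨⟨a', b'⟩, ⟨ha', hb'⟩, rfl⟩
    rw [← map_mul, ← map_mul]
    congr 1
    exact Prod.ext (hA a ha a' ha') (hB b hb b' hb')
  · rintro _ ⟨⟨a, b⟩, ⟨ha, hb⟩, rfl⟩
    show Equiv.Perm.sign (finSumFinEquiv.permCongr (Equiv.Perm.sumCongr a b)) = 1
    rw [Equiv.Perm.sign_permCongr, Equiv.Perm.sign_sumCongr, hAs a ha, hBs b hb, one_mul]
  · rw [Subgroup.card_map_of_injective hf, ← hAc, ← hBc, ← Nat.card_prod]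
    exact Nat.card_congr (Subgroup.prodEquiv A B).toEquiv

theorem exA_three : ExA 3 3 := by
  haveI : Fact (Nat.Prime 3) := ⟨by norm_num⟩
  have h : orderOf (finRotate 3) = 3 := orderOf_eq_prime (by decide) (by decide)
  refine ⟨Subgroup.zpowers (finRotate 3), ?_, ?_, by rw [Nat.card_zpowers, h]⟩
  · rintro _ ⟨i, rfl⟩ _ ⟨j, rfl⟩
    show finRotate 3 ^ i * finRotate 3 ^ j = finRotate 3 ^ j * finRotate 3 ^ i
    rw [← zpow_add, ← zpow_add, add_comm]
  · rintro _ ⟨i, rfl⟩
    show Equiv.Perm.sign (finRotate 3 ^ i) = 1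
    rw [map_zpow, show Equiv.Perm.sign (finRotate 3) = 1 by decide, one_zpow]

/-- the four-group -/
def V4 : Subgroup (Equiv.Perm (Fin 4)) where
  carrier := {g | g = 1 ∨ g = Equiv.swap 0 1 * Equiv.swap 2 3 ∨ g = Equiv.swap 0 2 * Equiv.swap 1 3 ∨
    g = Equiv.swap 0 3 * Equiv.swap 1 2}
  mul_mem' := by
    rintro a b (rfl | rfl | rfl | rfl) (rfl | rfl | rfl | rfl) <;>
    show _ ∨ _ ∨ _ ∨ _ <;> decide
  one_mem' := Or.inl rfl
  inv_mem' := by
    rintro a (rfl | rfl | rfl | rfl) <;> show _ ∨ _ ∨ _ ∨ _ <;> decide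

theorem exA_four : ExA 4 4 := by
  refine ⟨V4, ?_, ?_, ?_⟩
  · rintro a (rfl | rfl | rfl | rfl) b (rfl | rfl | rfl | rfl) <;> decide
  · rintro a (rfl | rfl | rfl | rfl) <;> decide
  · have h : Nat.card V4 = ({1, Equiv.swap 0 1 * Equiv.swap 2 3, Equiv.swap 0 2 * Equiv.swap 1 3,
        Equiv.swap 0 3 * Equiv.swap 1 2} : Finset (Equiv.Perm (Fin 4))).card :=
      Nat.subtype_card _ (fun x => by
        simp only [Finset.mem_insert, Finset.mem_singleton]
        exact Iff.rfl)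
    rw [h]
    decide

theorem exA_zero : ExA 0 1 := ⟨⊥, by
  intro a ha b hb
  rw [Subgroup.mem_bot] at ha hb
  rw [ha, hb], by
  intro a ha
  rw [Subgroup.mem_bot] at ha
  rw [ha, map_one], by simp⟩

theorem exA_three_mul (k : ℕ) : ExA (3 * k) (3 ^ k) := by
  induction k with
  | zero => exact exA_zero
  | succ k ih =>
    have := exA_add ih exA_three
    rwa [← pow_succ] at this

theorem greatestA (n c : ℕ) (he : ExA n c)
    (hc : ∀ A : Subgroup (Equiv.Perm (Fin n)), (∀ a ∈ A, ∀ b ∈ A, a * b = b * a) →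
      (∀ a ∈ A, Equiv.Perm.sign a = 1) → Nat.card A ≤ c) :
    IsGreatest {c : ℕ | ∃ A : Subgroup (alternatingGroup (Fin n)), IsMulCommutative A ∧ Nat.card A = c}
      c := by
  constructor
  · obtain ⟨A, hA, hAs, hAc⟩ := he
    have hle : A ≤ alternatingGroup (Fin n) := fun a ha => Equiv.Perm.mem_alternatingGroup.2 (hAs a ha)
    refine ⟨A.subgroupOf (alternatingGroup (Fin n)), ⟨⟨fun a b => ?_⟩⟩, ?_⟩
    · apply Subtype.ext
      apply Subtype.ext
      exact hA a.1.1 a.2 b.1.1 b.2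
    · rw [← hAc]
      exact Nat.card_congr (Subgroup.subgroupOfEquivOfLe hle).toEquiv
  · rintro d ⟨A, hA, rfl⟩
    have h := hc (A.map (alternatingGroup (Fin n)).subtype) ?_ ?_
    · rwa [Subgroup.card_map_of_injective (Subgroup.subtype_injective _)] at h
    · rintro _ ⟨a, ha, rfl⟩ _ ⟨b, hb, rfl⟩
      rw [← map_mul, ← map_mul]
      congr 1
      exact congrArg Subtype.val (hA.is_comm.comm (⟨a, ha⟩ : A) ⟨b, hb⟩)
    · rintro _ ⟨a, -, rfl⟩
      exact Equiv.Perm.mem_alternatingGroup.1 a.2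

end Cfsg.Agent.Lib.Helper19.AbelPerm
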