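import Mathlib
import Cfsg.Agent.Lib.Helper13.CardSup

/-! Almost simple groups have no nontrivial solvable normal subgroups; no maximal subgroup of prime order. -/

set_option autoImplicit false

namespace Cfsg.Agent.Lib.Helper19

open Subgroup

theorem no_normal_solvable {G : Type*} [Group G] (T : Subgroup G) [T.Normal]
    (hT : IsSimpleGroup T) (hTc : ¬ IsMulCommutative T) (hC : centralizer (T : Set G) = ⊥)
    (N : Subgroup G) [N.Normal] (hN : N ≠ ⊥) (hs : Group.IsSolvable N) : False := by
  haveI : (N.subgroupOf T).Normal := inferInstance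
  rcases hT.eq_bot_or_eq_top_of_normal (N.subgroupOf T) inferInstance with h | h
  · rw [subgroupOf_eq_bot] at h
    have h1 : ⁅N, T⁆ ≤ N ⊓ T := commutator_le_inf N T
    rw [h.eq_bot, le_bot_iff, commutator_eq_bot_iff_le_centralizer, hC, le_bot_iff] at h1
    exact hN h1
  · rw [subgroupOf_eq_top] at h
    haveI : Group.IsSolvable T :=
      Group.isSolvable_of_isSolvable_injective (f := inclusion h) (inclusion_injective h)
    exact hTc ⟨⟨IsSimpleGroup.comm_iff_isSolvable.mpr inferInstance⟩⟩

theorem not_prime_card_of_isCoatom {G : Type*} [Group G] [Finite G] (T : Subgroup G) [T.Normal]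
    (hT : IsSimpleGroup T) (hTc : ¬ IsMulCommutative T) (hC : centralizer (T : Set G) = ⊥)
    (H : Subgroup G) (hmax : IsCoatom H) : ¬ (Nat.card H).Prime := by
  intro hp
  set p := Nat.card H with hpdef
  haveI : Fact p.Prime := ⟨hp⟩
  have hHp : IsPGroup p H := IsPGroup.of_card (n := 1) (by rw [pow_one])
  have hHne : H ≠ ⊥ := by
    intro h
    rw [hpdef, h, card_bot] at hp
    exact Nat.not_prime_one hp
  have hsolvP : ∀ (q : ℕ) [Fact q.Prime] (Q : Subgroup G), IsPGroup q Q → Group.IsSolvable Q := by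
    intro q _ Q hQ
    haveI := hQ.isNilpotent
    infer_instance
  -- H is not normal
  have hnn : ¬ H.Normal := by
    intro hn
    exact no_normal_solvable T hT hTc hC H hHne (hsolvP p H hHp)
  have hnorm : normalizer (H : Set G) = H := by
    rcases hmax.le_iff.mp (le_normalizer (H := H)) with h | h
    · exact absurd (normalizer_eq_top_iff.mp h) hnn
    · exact h
  -- H is a Sylow subgroup
  obtain ⟨P, hP⟩ := hHp.exists_le_sylow
  have hPH : (P : Subgroup G) = H := by
    rcases hmax.le_iff.mp hP with h | h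
    · exfalso
      have : IsPGroup p (⊤ : Subgroup G) := h ▸ P.2
      exact no_normal_solvable T hT hTc hC ⊤ (fun h' => hHne (le_bot_iff.mp (h' ▸ le_top)))
        (hsolvP p ⊤ this)
    · exact h
  have hcyc : IsCyclic H := isCyclic_of_prime_card (p := p) rfl
  have hNC : normalizer (P : Set G) ≤ centralizer (P : Set G) := by
    have e : ((P : Subgroup G) : Set G) = (H : Set G) := by rw [hPH]
    rw [show (P : Set G) = (H : Set G) from e, hnorm]
    intro x hx
    rw [mem_centralizer_iff]
    intro y hy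
    haveI := hcyc.isMulCommutative
    have := mul_comm' (⟨y, hy⟩ : H) ⟨x, hx⟩
    exact congrArg Subtype.val this
  set K := (MonoidHom.transferSylow P hNC).ker with hK
  have hcompl := MonoidHom.ker_transferSylow_isComplement' P hNC
  have hpK : ¬ p ∣ Nat.card K := MonoidHom.not_dvd_card_ker_transferSylow P hNC
  have hKne : K ≠ ⊥ := by
    intro h
    have h1 := hcompl.sup_eq_top
    rw [← hK, h, bot_sup_eq, hPH] at h1
    exact hmax.1 h1
  have hcardK : Nat.card K ≠ 1 := fun h => hKne (card_eq_one.mp h)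
  obtain ⟨q, hq, hqK⟩ := Nat.exists_prime_and_dvd hcardK
  haveI : Fact q.Prime := ⟨hq⟩
  have hqp : q ≠ p := fun h => hpK (h ▸ hqK)
  -- all Sylow q-subgroups lie in K
  have hQK : ∀ Q : Sylow q G, (Q : Subgroup G) ≤ K := by
    intro Q x hx
    rw [hK, MonoidHom.mem_ker]
    obtain ⟨a, ha⟩ := (Q.2 ⟨x, hx⟩)
    have ha' : x ^ q ^ a = 1 := congrArg Subtype.val ha
    obtain ⟨b, hb⟩ := (P.2 (MonoidHom.transferSylow P hNC x))
    have h1 : (MonoidHom.transferSylow P hNC x) ^ q ^ a = 1 := by rw [← map_pow, ha', map_one]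
    have hco : Nat.Coprime (q ^ a) (p ^ b) :=
      Nat.Coprime.pow _ _ ((Nat.coprime_primes hq hp).mpr hqp)
    have h2 : orderOf (MonoidHom.transferSylow P hNC x) ∣ Nat.gcd (q ^ a) (p ^ b) :=
      Nat.dvd_gcd (orderOf_dvd_of_pow_eq_one h1) (orderOf_dvd_of_pow_eq_one hb)
    rw [hco.gcd_eq_one, Nat.dvd_one, orderOf_eq_one_iff] at h2
    exact h2
  -- the number of Sylow q-subgroups is prime to p
  have hnq : ¬ p ∣ Nat.card (Sylow q G) := by
    obtain ⟨Q⟩ : Nonempty (Sylow q G) := inferInstance
    rw [Q.card_eq_index_normalizer]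
    have h1 := Sylow.normalizer_sup_eq_top' Q (hQK Q)
    have h2 := Cfsg.Agent.Lib.Helper13.card_sup_mul_card_inf (normalizer (Q : Set G)) K
      (by rw [normalizer_eq_top_iff.mpr (inferInstance : K.Normal)]; exact le_top)
    rw [h1, card_top] at h2
    have h3 := (normalizer (Q : Set G)).index_mul_card
    intro hd
    apply hpK
    have h4 : (normalizer (Q : Set G)).index * Nat.card (normalizer (Q : Set G) ⊓ K : Subgroup G) =
        Nat.card K := by
      have hpos : 0 < Nat.card (normalizer (Q : Set G)) := Nat.card_pos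
      apply Nat.eq_of_mul_eq_mul_left hpos
      rw [← h2, ← h3]; ring
    rw [← h4]
    exact hd.mul_right _
  obtain ⟨Q, hQ⟩ := hHp.nonempty_fixed_point_of_prime_not_dvd_card (Sylow q G) hnq
  rw [sylow_mem_fixedPoints_iff] at hQ
  have hQne : (Q : Subgroup G) ≠ ⊥ := by
    intro h
    have h1 : q ∣ Nat.card G := hqK.trans (card_subgroup_dvd_card K)
    have h2 := Q.card_eq_multiplicity
    rw [h, card_bot] at h2
    have h3 : (Nat.card G).factorization q ≠ 0 := by
      have := (hq.factorization_pos_of_dvd Nat.card_pos.ne' h1)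
      omega
    have h4 : 1 < q ^ (Nat.card G).factorization q := Nat.one_lt_pow h3 hq.one_lt
    omega
  have hQH : ¬ (Q : Subgroup G) ≤ H := by
    intro h
    apply hQne
    have h1 : IsPGroup p (Q : Subgroup G) := hHp.to_le h
    have h2 : Nat.card (Q : Subgroup G) = 1 := by
      obtain ⟨a, ha⟩ := (IsPGroup.iff_card.mp h1)
      obtain ⟨b, hb⟩ := (IsPGroup.iff_card.mp Q.2)
      have hco : Nat.Coprime (p ^ a) (q ^ b) :=
        Nat.Coprime.pow _ _ ((Nat.coprime_primes hp hq).mpr hqp.symm)
      rw [← ha] at hco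
      have hb' : Nat.card (Q : Subgroup G) = q ^ b := hb
      rw [← hb'] at hco
      exact (Nat.coprime_self _).mp hco
    exact card_eq_one.mp h2
  have hQn : (Q : Subgroup G).Normal := by
    rw [← normalizer_eq_top_iff]
    rcases hmax.le_iff.mp hQ with h | h
    · exact h
    · exact absurd (h ▸ le_normalizer) hQH
  exact no_normal_solvable T hT hTc hC Q hQne (hsolvP q Q Q.2)

end Cfsg.Agent.Lib.Helper19
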