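import Mathlib

namespace Cfsg.Agent.Lib.Helper19.AF

open Nat

theorem two_mul_card_alt (n : ℕ) (hn : 2 ≤ n) :
    2 * Nat.card (alternatingGroup (Fin n)) = n ! := by
  haveI : Nontrivial (Fin n) := Fin.nontrivial_iff_two_le.2 hn
  rw [two_mul_nat_card_alternatingGroup, Nat.card_perm]
  simp

theorem prime_dvd_card_alt {n p : ℕ} (hp : p.Prime) (hp2 : 2 < p) (hpn : p ≤ n) :
    p ∣ Nat.card (alternatingGroup (Fin n)) := by
  have h1 := two_mul_card_alt n (by omega)
  have h2 : p ∣ 2 * Nat.card (alternatingGroup (Fin n)) := by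
    rw [h1]; exact (hp.dvd_factorial).2 hpn
  rcases hp.dvd_mul.1 h2 with h | h
  · have := Nat.le_of_dvd (by norm_num) h
    omega
  · exact h

theorem sq_not_dvd_factorial {n p : ℕ} (hp : p.Prime) (hn : n < 2 * p) : ¬ p ^ 2 ∣ n ! := by
  intro h
  have h1 : 2 ≤ (n !).factorization p :=
    (hp.pow_dvd_iff_le_factorization (Nat.factorial_ne_zero n)).1 h
  have hlog : Nat.log p n < 2 := by
    apply Nat.log_lt_of_lt_pow'
    · norm_num
    · have := hp.two_le
      nlinarith
  rw [Nat.factorization_factorial hp hlog] at h1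
  have h2 : Finset.Ico 1 2 = {1} := rfl
  rw [h2, Finset.sum_singleton, pow_one] at h1
  have h3 : n / p < 2 := by
    rw [Nat.div_lt_iff_lt_mul hp.pos]
    omega
  omega

theorem sq_not_dvd_card_alt {n p : ℕ} (hp : p.Prime) (hn : n < 2 * p) (hn2 : 2 ≤ n) :
    ¬ p ^ 2 ∣ Nat.card (alternatingGroup (Fin n)) := by
  intro h
  apply sq_not_dvd_factorial hp hn
  rw [← two_mul_card_alt n hn2]
  exact Dvd.dvd.mul_left h 2

theorem exists_mem_dvd_of_dvd_lcm {p : ℕ} (hp : p.Prime) (s : Multiset ℕ) (h : p ∣ s.lcm) :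
    ∃ a ∈ s, p ∣ a := by
  induction s using Multiset.induction_on with
  | empty =>
    simp at h
    exact absurd h hp.one_lt.ne'
  | cons a s ih =>
    rw [Multiset.lcm_cons] at h
    rcases (Nat.Prime.prime hp).dvd_or_dvd_of_dvd_lcm h with h | h
    · exact ⟨a, Multiset.mem_cons_self a s, h⟩
    · obtain ⟨b, hb, hb2⟩ := ih h
      exact ⟨b, Multiset.mem_cons_of_mem hb, hb2⟩

theorem orderOf_ne_mul {n p r : ℕ} (hp : p.Prime) (hr : r.Prime) (hpr : p ≠ r) (hn : n < p + r)
    (g : Equiv.Perm (Fin n)) : orderOf g ≠ p * r := by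
  intro h
  rw [← Equiv.Perm.lcm_cycleType] at h
  have hsum : g.cycleType.sum ≤ n := by
    rw [Equiv.Perm.sum_cycleType]
    exact (Finset.card_le_univ _).trans (by simp)
  obtain ⟨a, ha, hpa⟩ := exists_mem_dvd_of_dvd_lcm hp g.cycleType (by rw [h]; exact dvd_mul_right _ _)
  obtain ⟨b, hb, hrb⟩ := exists_mem_dvd_of_dvd_lcm hr g.cycleType (by rw [h]; exact dvd_mul_left _ _)
  have hapos : 0 < a := by
    have := Equiv.Perm.two_le_of_mem_cycleType ha; omega
  have hbpos : 0 < b := by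
    have := Equiv.Perm.two_le_of_mem_cycleType hb; omega
  obtain ⟨t, ht⟩ := Multiset.exists_cons_of_mem ha
  by_cases hra : r ∣ a
  · have h1 : p * r ∣ a := Nat.Coprime.mul_dvd_of_dvd_of_dvd ((Nat.coprime_primes hp hr).2 hpr) hpa hra
    have h2 := Nat.le_of_dvd hapos h1
    have h3 : a ≤ g.cycleType.sum := by
      rw [ht, Multiset.sum_cons]; omega
    have h4 : p + r ≤ p * r := by
      have := hp.two_le
      have := hr.two_le
      nlinarith
    omega
  · have hba : b ≠ a := by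
      rintro rfl
      exact hra hrb
    have hbt : b ∈ t := by
      rw [ht, Multiset.mem_cons] at hb
      exact hb.resolve_left hba
    obtain ⟨u, hu⟩ := Multiset.exists_cons_of_mem hbt
    have h3 : a + b ≤ g.cycleType.sum := by
      rw [ht, hu, Multiset.sum_cons, Multiset.sum_cons]; omega
    have h4 := Nat.le_of_dvd hapos hpa
    have h5 := Nat.le_of_dvd hbpos hrb
    omega

/-- distinct primes in `(n/2, n]` : `a ∤ b - 1`. -/
theorem not_dvd_sub_one {n a b : ℕ} (ha : a.Prime) (hb : b.Prime) (hab : a ≠ b) (ha2 : 2 < a)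
    (hb2 : 2 < b) (hna : n < 2 * a) (hbn : b ≤ n) : ¬ a ∣ b - 1 := by
  rintro ⟨k, hk⟩
  have hk1 : k = 1 := by
    rcases k with _ | _ | k
    · omega
    · rfl
    · exfalso
      have : a * (k + 1 + 1) = a * k + 2 * a := by ring
      omega
  subst hk1
  rw [mul_one] at hk
  have h1 := ha.eq_two_or_odd
  have h2 := hb.eq_two_or_odd
  omega

end Cfsg.Agent.Lib.Helper19.AF
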