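import Mathlib

/-! Bochert's bound for primitive groups. -/

set_option autoImplicit false

namespace Cfsg.Agent.Lib.Helper19

open MulAction Equiv

/-- The commutator of two permutations whose supports meet in exactly one point is a 3-cycle. -/
theorem isThreeCycle_commutator_of_inter {α : Type*} [DecidableEq α] [Fintype α]
    (x y : Perm α) (δ : α)
    (hx : x δ ≠ δ) (hy : y δ ≠ δ) (h : ∀ p, p ≠ δ → x p = p ∨ y p = p) :
    (x * y * x⁻¹ * y⁻¹).IsThreeCycle := by
  have hinv : ∀ (z : Perm α) (p : α), z p = p → z⁻¹ p = p := fun z p hp =>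
    Perm.inv_eq_iff_eq.mpr hp.symm
  have ais : ∀ (z : Perm α) (p : α), z (z⁻¹ p) = p := fun z p => by simp
  have ias : ∀ (z : Perm α) (p : α), z⁻¹ (z p) = p := fun z p => by simp
  have yx : y (x δ) = x δ := by
    rcases h (x δ) hx with h1 | h1
    · exact absurd (x.injective h1) hx
    · exact h1
  have xy : x (y δ) = y δ := by
    rcases h (y δ) hy with h1 | h1
    · exact h1
    · exact absurd (y.injective h1) hy
  have hxy : x δ ≠ y δ := by
    intro e
    rw [e] at yx
    exact hy (y.injective yx)
  have e : x * y * x⁻¹ * y⁻¹ = swap δ (y δ) * swap δ (x δ) := by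
    ext p
    simp only [Perm.mul_apply]
    by_cases h1 : p = δ
    · subst h1
      rw [swap_apply_left, swap_apply_of_ne_of_ne hx hxy]
      have hw : y⁻¹ p ≠ p := fun hw => hy (by
        have := congrArg y hw
        rw [ais] at this
        exact this.symm)
      have hyw : y (y⁻¹ p) ≠ y⁻¹ p := by
        rw [ais]; exact hw.symm
      have hxw : x (y⁻¹ p) = y⁻¹ p := (h _ hw).resolve_right hyw
      rw [hinv x _ hxw, ais]
    by_cases h2 : p = x δ
    · subst h2
      rw [swap_apply_right, swap_apply_left, hinv y _ yx, ias, xy]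
    by_cases h3 : p = y δ
    · subst h3
      rw [swap_apply_of_ne_of_ne hy hxy.symm, swap_apply_right, ias]
      have hu : x⁻¹ δ ≠ δ := fun hu => hx (by
        have := congrArg x hu
        rw [ais] at this
        exact this.symm)
      have hxu : x (x⁻¹ δ) ≠ x⁻¹ δ := by
        rw [ais]; exact hu.symm
      have hyu : y (x⁻¹ δ) = x⁻¹ δ := (h _ hu).resolve_left hxu
      rw [hyu, ais]
    rw [swap_apply_of_ne_of_ne h1 h2, swap_apply_of_ne_of_ne h1 h3]
    have hw : y⁻¹ p ≠ δ := fun hw => h3 (by
      have := congrArg y hw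
      rw [ais] at this
      exact this)
    by_cases hyp : y p = p
    · rw [hinv y p hyp]
      have hu : x⁻¹ p ≠ δ := fun hu => h2 (by
        have := congrArg x hu
        rw [ais] at this
        exact this)
      rcases h _ hu with h4 | h4
      · rw [ais] at h4
        rw [← h4, hyp]
        conv_lhs => rw [h4]
        rw [ais]
      · rw [h4, ais]
    · have hyw : y (y⁻¹ p) ≠ y⁻¹ p := by
        intro h5
        rw [ais] at h5
        apply hyp
        conv_lhs => rw [h5]
        rw [ais]
      have hxw : x (y⁻¹ p) = y⁻¹ p := (h _ hw).resolve_right hyw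
      rw [hinv x _ hxw, ais]
      exact (h p h1).resolve_right hyp
  rw [e]
  exact Perm.isThreeCycle_swap_mul_swap_same hy.symm hx.symm hxy.symm

/-- A base of size `b` bounds the order of the group. -/
theorem card_le_descFactorial_of_base {G Ω : Type*} [Group G] [Finite G] [MulAction G Ω]
    [Fintype Ω] [DecidableEq Ω] (B : Finset Ω) (hB : fixingSubgroup G (B : Set Ω) = ⊥) :
    Nat.card G ≤ (Fintype.card Ω).descFactorial B.card := by
  classical
  let f : G → (B ↪ Ω) := fun g => ⟨fun b => g • b.1, fun a b hab => Subtype.ext (smul_left_cancel g hab)⟩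
  have hf : Function.Injective f := by
    intro g g' hgg
    have : g'⁻¹ * g ∈ fixingSubgroup G (B : Set Ω) := by
      rw [mem_fixingSubgroup_iff]
      intro b hb
      have := congrArg (fun e : (B ↪ Ω) => e ⟨b, hb⟩) hgg
      have this' : g • b = g' • b := this
      rw [mul_smul, this', inv_smul_smul]
    rw [hB, Subgroup.mem_bot, inv_mul_eq_one] at this
    exact this.symm
  have := Nat.card_le_card_of_injective f hf
  rw [Nat.card_eq_fintype_card (α := (B ↪ Ω)), Fintype.card_embedding_eq, Fintype.card_coe] at this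
  exact this

theorem Subgroup.exists_ne_one_of_nontrivial' {G : Type*} [Group G] {H : Subgroup G} (h : H ≠ ⊥) :
    ∃ y ∈ H, y ≠ 1 := by
  obtain ⟨y, hy⟩ := (Subgroup.ne_bot_iff_exists_ne_one).mp h
  exact ⟨y.1, y.2, fun h => hy (Subtype.ext h)⟩

theorem bochert_bound {G Ω : Type*} [Group G] [Finite G] [MulAction G Ω] [FaithfulSMul G Ω]
    [Fintype Ω] [DecidableEq Ω]
    (hprim : IsPreprimitive G Ω) (hA : ¬ alternatingGroup Ω ≤ (toPermHom G Ω).range) :
    Nat.card G * Nat.factorial ((Fintype.card Ω + 1) / 2) ≤ Nat.factorial (Fintype.card Ω) := by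
  classical
  -- no three-cycles
  have hprim' : IsPreprimitive (toPermHom G Ω).range Ω := by
    let f : Ω →ₑ[(toPermHom G Ω).rangeRestrict] Ω :=
      { toFun := id
        map_smul' := fun _ _ => rfl }
    exact IsPreprimitive.of_surjective (f := f) Function.surjective_id
  have no3 : ∀ g : G, ¬ (toPerm g : Perm Ω).IsThreeCycle := by
    intro g hg
    exact hA (Perm.alternatingGroup_le_of_isPreprimitive_of_isThreeCycle_mem hprim' hg ⟨g, rfl⟩)
  -- a minimal base
  have huniv : fixingSubgroup G ((Finset.univ : Finset Ω) : Set Ω) = ⊥ := by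
    rw [eq_bot_iff]
    intro g hg
    rw [mem_fixingSubgroup_iff] at hg
    rw [Subgroup.mem_bot]
    apply FaithfulSMul.eq_of_smul_eq_smul (α := Ω)
    intro a
    rw [one_smul]
    exact hg a (by simp)
  obtain ⟨Δ, hΔ, hmin⟩ := (Finset.univ.filter
    (fun Δ : Finset Ω => fixingSubgroup G (Δ : Set Ω) = ⊥)).exists_min_image Finset.card
      ⟨Finset.univ, Finset.mem_filter.mpr ⟨Finset.mem_univ _, huniv⟩⟩
  simp only [Finset.mem_filter, Finset.mem_univ, true_and] at hΔ hmin
  -- the complement is a base
  have hcompl : fixingSubgroup G ((Δᶜ : Finset Ω) : Set Ω) = ⊥ := by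
    rw [eq_bot_iff]
    intro x hx
    rw [Subgroup.mem_bot]
    by_contra hx1
    rw [mem_fixingSubgroup_iff] at hx
    have : ∃ δ : Ω, x • δ ≠ δ := by
      by_contra hcon
      push Not at hcon
      apply hx1
      apply FaithfulSMul.eq_of_smul_eq_smul (α := Ω)
      intro a
      rw [one_smul]
      exact hcon a
    obtain ⟨δ, hδ⟩ := this
    have hδΔ : δ ∈ Δ := by
      by_contra hcon
      exact hδ (hx δ (by simpa using hcon))
    have hne : fixingSubgroup G ((Δ.erase δ : Finset Ω) : Set Ω) ≠ ⊥ := by
      intro hcon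
      have := hmin _ hcon
      rw [Finset.card_erase_of_mem hδΔ] at this
      have hpos : 0 < Δ.card := Finset.card_pos.mpr ⟨δ, hδΔ⟩
      omega
    obtain ⟨y, hy, hy1⟩ := Subgroup.exists_ne_one_of_nontrivial' hne
    rw [mem_fixingSubgroup_iff] at hy
    have hyδ : y • δ ≠ δ := by
      intro hcon
      apply hy1
      have : y ∈ fixingSubgroup G (Δ : Set Ω) := by
        rw [mem_fixingSubgroup_iff]
        intro a ha
        by_cases had : a = δ
        · rw [had]; exact hcon
        · exact hy a (by simp [had, Finset.mem_coe.mp ha])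
      rw [hΔ, Subgroup.mem_bot] at this
      exact this
    have h3 := isThreeCycle_commutator_of_inter (toPerm x : Perm Ω) (toPerm y) δ hδ hyδ (by
      intro p hp
      by_cases hpΔ : p ∈ Δ
      · right
        exact hy p (by simp [hp, hpΔ])
      · left
        exact hx p (by simpa using hpΔ))
    apply no3 (x * y * x⁻¹ * y⁻¹)
    have : (toPerm (x * y * x⁻¹ * y⁻¹) : Perm Ω) = toPerm x * toPerm y * (toPerm x)⁻¹ * (toPerm y)⁻¹ := by
      ext a
      simp [mul_smul]
    rw [this]
    exact h3
  -- choose the smaller base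
  have hcard : Δ.card + Δᶜ.card = Fintype.card Ω := Finset.card_add_card_compl Δ
  obtain ⟨B, hB, hBc⟩ : ∃ B : Finset Ω, fixingSubgroup G (B : Set Ω) = ⊥ ∧
      2 * B.card ≤ Fintype.card Ω := by
    by_cases h : Δ.card ≤ Δᶜ.card
    · exact ⟨Δ, hΔ, by omega⟩
    · exact ⟨Δᶜ, hcompl, by omega⟩
  have h1 := card_le_descFactorial_of_base B hB
  have hBn : B.card ≤ Fintype.card Ω := by omega
  have h2 := Nat.factorial_mul_descFactorial hBn
  have h3 : Nat.factorial ((Fintype.card Ω + 1) / 2) ≤ Nat.factorial (Fintype.card Ω - B.card) :=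
    Nat.factorial_le (by omega)
  calc Nat.card G * Nat.factorial ((Fintype.card Ω + 1) / 2)
      ≤ (Fintype.card Ω).descFactorial B.card * Nat.factorial (Fintype.card Ω - B.card) :=
        Nat.mul_le_mul h1 h3
    _ = Nat.factorial (Fintype.card Ω) := by rw [mul_comm, h2]

end Cfsg.Agent.Lib.Helper19
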