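import Mathlib
import Cfsg.Agent.S0064
import Cfsg.Agent.H9.Cores

set_option autoImplicit false

namespace Cfsg.Agent.Lib.Helper19.SubnEx

/-- a subgroup contained in the range of a hom from a nilpotent group is nilpotent -/
theorem isNilpotent_of_le_range {K G : Type*} [Group K] [Group G] [Group.IsNilpotent K]
    (φ : K →* G) (L : Subgroup G) (hL : L ≤ φ.range) : Group.IsNilpotent L := by
  have hs : Function.Surjective (φ.subgroupComap L) := by
    rintro ⟨x, hx⟩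
    obtain ⟨k, rfl⟩ := hL hx
    exact ⟨⟨k, hx⟩, rfl⟩
  exact Group.nilpotent_of_surjective _ hs

theorem isPGroup_zpowers {G : Type*} [Group G] (p k : ℕ) (x : G) (hx : x ^ p ^ k = 1) :
    IsPGroup p (Subgroup.zpowers x) := by
  rintro ⟨y, hy⟩
  obtain ⟨j, rfl⟩ := Subgroup.mem_zpowers_iff.1 hy
  refine ⟨k, ?_⟩
  apply Subtype.ext
  show (x ^ j) ^ p ^ k = 1
  rw [← zpow_natCast, ← zpow_mul, mul_comm, zpow_mul, zpow_natCast, hx, one_zpow]

theorem key {G : Type*} [Group G] [Finite G] (V : Subgroup G) [V.Normal] (k : ℕ)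
    (hidx : V.index = 2 ^ k) (a : G) (ha : a ^ 2 = 1)
    (hconj : ∀ v ∈ V, ∃ x : G, Commute (x * v * x⁻¹) a) (c : G) :
    ∃ g : G, IsConj c g ∧ ((Subgroup.zpowers a).subgroupOf
      (Subgroup.zpowers a ⊔ Subgroup.zpowers g)).IsSubnormal := by
  classical
  haveI : Fact (Nat.Prime 2) := ⟨Nat.prime_two⟩
  have hcV : c ^ 2 ^ k ∈ V := by
    rw [← hidx]
    exact Subgroup.pow_index_mem V c
  obtain ⟨x, hx⟩ := hconj _ hcV
  obtain ⟨c', hc'⟩ : ∃ c', c' = x * c * x⁻¹ := ⟨_, rfl⟩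
  obtain ⟨u, hu⟩ : ∃ u, u = c' ^ 2 ^ k := ⟨_, rfl⟩
  have hu2 : u = x * c ^ 2 ^ k * x⁻¹ := by rw [hu, hc', conj_pow]
  rw [← hu2] at hx
  obtain ⟨C, hC⟩ : ∃ C : Subgroup G, C = Subgroup.centralizer {u} := ⟨_, rfl⟩
  have memC : ∀ y : G, y ∈ C ↔ Commute u y := by
    intro y
    rw [hC, Subgroup.mem_centralizer_singleton_iff]
    exact ⟨fun h => h.symm, fun h => h.symm⟩
  have haC : a ∈ C := (memC a).2 hx
  have hcC : c' ∈ C := (memC c').2 (by rw [hu]; exact (Commute.refl c').pow_left _)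
  have huC : u ∈ C := (memC u).2 (Commute.refl u)
  obtain ⟨Z, hZ⟩ : ∃ Z : Subgroup C, Z = Subgroup.zpowers ⟨u, huC⟩ := ⟨_, rfl⟩
  have hZc : Z ≤ Subgroup.center C := by
    rw [hZ, Subgroup.zpowers_le, Subgroup.mem_center_iff]
    intro y
    apply Subtype.ext
    exact ((memC y).1 y.2).symm
  haveI hZn : Z.Normal := by
    constructor
    intro n hn g
    have h1 := Subgroup.mem_center_iff.1 (hZc hn) g
    rw [h1, mul_inv_cancel_right]
    exact hn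
  let f : C →* C ⧸ Z := QuotientGroup.mk' Z
  have hfa : (f ⟨a, haC⟩) ^ 2 ^ 1 = 1 := by
    rw [← map_pow, pow_one]
    have : (⟨a, haC⟩ : C) ^ 2 = 1 := Subtype.ext ha
    rw [this, map_one]
  have hfc : (f ⟨c', hcC⟩) ^ 2 ^ k = 1 := by
    rw [← map_pow]
    have : (⟨c', hcC⟩ : C) ^ 2 ^ k = ⟨u, huC⟩ := Subtype.ext hu.symm
    rw [this]
    exact (QuotientGroup.eq_one_iff _).2 (by rw [hZ]; exact Subgroup.mem_zpowers _)
  obtain ⟨S, hS⟩ := (isPGroup_zpowers 2 1 _ hfa).exists_le_sylow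
  obtain ⟨S', hS'⟩ := (isPGroup_zpowers 2 k _ hfc).exists_le_sylow
  obtain ⟨ybar, hy⟩ := MulAction.exists_smul_eq (C ⧸ Z) S' S
  obtain ⟨y, rfl⟩ := QuotientGroup.mk'_surjective Z ybar
  have hgS : f (y * ⟨c', hcC⟩ * y⁻¹) ∈ S := by
    rw [← hy, map_mul, map_mul, map_inv]
    have h1 : f ⟨c', hcC⟩ ∈ (S' : Subgroup (C ⧸ Z)) := hS' (Subgroup.mem_zpowers _)
    have h2 := Subgroup.smul_mem_pointwise_smul _ (MulAut.conj (f y)) _ h1
    exact h2
  have haS : f ⟨a, haC⟩ ∈ S := hS (Subgroup.mem_zpowers _)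
  obtain ⟨K, hK⟩ : ∃ K : Subgroup C, K = (S : Subgroup (C ⧸ Z)).comap f := ⟨_, rfl⟩
  haveI hSnil : Group.IsNilpotent (S : Subgroup (C ⧸ Z)) := S.2.isNilpotent
  haveI hKnil : Group.IsNilpotent K := by
    subst hK
    apply Subgroup.isNilpotent_of_ker_le_center (f.subgroupComap (S : Subgroup (C ⧸ Z)))
    intro w hw
    rw [MonoidHom.mem_ker] at hw
    have h1 : f (w : C) = 1 := congrArg Subtype.val hw
    have h2 : (w : C) ∈ Z := (QuotientGroup.eq_one_iff _).1 h1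
    have h3 := hZc h2
    rw [Subgroup.mem_center_iff] at h3 ⊢
    intro z
    exact Subtype.ext (h3 z)
  refine ⟨((y * ⟨c', hcC⟩ * y⁻¹ : C) : G), ?_, ?_⟩
  · rw [isConj_iff]
    refine ⟨(y : G) * x, ?_⟩
    show (y : G) * x * c * ((y : G) * x)⁻¹ = (y : G) * c' * (y : G)⁻¹
    rw [hc']
    group
  · haveI : Group.IsNilpotent ↥(Subgroup.zpowers a ⊔
        Subgroup.zpowers ((y * ⟨c', hcC⟩ * y⁻¹ : C) : G)) := by
      apply isNilpotent_of_le_range (C.subtype.comp K.subtype)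
      rw [sup_le_iff, Subgroup.zpowers_le, Subgroup.zpowers_le]
      constructor
      · exact ⟨⟨⟨a, haC⟩, by rw [hK]; exact haS⟩, rfl⟩
      · exact ⟨⟨y * ⟨c', hcC⟩ * y⁻¹, by rw [hK]; exact hgS⟩, rfl⟩
    exact Cfsg.Agent.S0064.result.1 inferInstance _

theorem not_le_pCore {G : Type*} [Group G] [Finite G] (V : Subgroup G) [V.Normal]
    (hV : Odd (Nat.card V)) (a : G) (v : G) (hv : v ∈ V) (hav : ¬ Commute a v) :
    ¬ Subgroup.zpowers a ≤ Cfsg.pCore 2 G := by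
  intro h
  have ha : a ∈ Cfsg.pCore 2 G := h (Subgroup.mem_zpowers a)
  haveI : (Cfsg.pCore 2 G).Normal := inferInstance
  obtain ⟨t, ht⟩ : ∃ t, t = a * v * a⁻¹ * v⁻¹ := ⟨_, rfl⟩
  have h1 : t ∈ Cfsg.pCore 2 G := by
    rw [ht, mul_assoc, mul_assoc]
    apply Subgroup.mul_mem _ ha
    rw [← mul_assoc]
    exact Subgroup.Normal.conj_mem inferInstance _ (Subgroup.inv_mem _ ha) v
  have h2 : t ∈ V := by
    rw [ht]
    exact Subgroup.mul_mem _ (Subgroup.Normal.conj_mem inferInstance _ hv a) (Subgroup.inv_mem _ hv)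
  obtain ⟨j, hj⟩ := (Cfsg.H9.pCore_isPGroup 2 (G := G)) ⟨t, h1⟩
  have hj' : t ^ 2 ^ j = 1 := congrArg Subtype.val hj
  have h3 : orderOf t ∣ 2 ^ j := orderOf_dvd_of_pow_eq_one hj'
  have h4 : orderOf t ∣ Nat.card V := by
    have := orderOf_dvd_natCard (⟨t, h2⟩ : V)
    rwa [Subgroup.orderOf_mk] at this
  have h5 : Nat.Coprime (2 ^ j) (Nat.card V) := Nat.Coprime.pow_left _ (Nat.coprime_two_left.2 hV)
  have h6 : orderOf t = 1 := Nat.eq_one_of_dvd_coprimes h5 h3 h4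
  rw [orderOf_eq_one_iff] at h6
  apply hav
  rw [ht] at h6
  show a * v = v * a
  have : a * v * a⁻¹ = v := mul_inv_eq_one.1 h6
  exact mul_inv_eq_iff_eq_mul.1 this

end Cfsg.Agent.Lib.Helper19.SubnEx
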