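import Mathlib
import Cfsg.Agent.Lib.Helper19.MetaCyc
import Cfsg.Agent.Lib.Helper19.SubnEx

/-! The group `3² : SD₁₆ = AΓL₁(9)`. -/

set_option autoImplicit false

namespace Cfsg.Agent.Lib.Helper19.G144

instance fact_sd16 : Fact ((3 : ZMod 8) ^ 2 = 1) := ⟨by decide⟩

/-- the semidihedral group of order 16 -/
abbrev SD16 := MC 8 2 3

abbrev V9 := ZMod 3 × ZMod 3

def R (v : V9) : V9 := (v.2, v.1 + v.2)
def S (v : V9) : V9 := (v.1 + v.2, -v.2)
def act (h : SD16) (v : V9) : V9 := R^[h.a.val] (S^[h.i.val] v)

set_option maxRecDepth 100000 in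
theorem raw_add : ∀ (a : ZMod 8) (i : ZMod 2) (v w : V9),
    act ⟨a, i⟩ (v + w) = act ⟨a, i⟩ v + act ⟨a, i⟩ w := by decide +kernel

set_option maxRecDepth 100000 in
theorem raw_mul : ∀ (a : ZMod 8) (i : ZMod 2) (a' : ZMod 8) (i' : ZMod 2) (v : V9),
    act ((⟨a, i⟩ : SD16) * ⟨a', i'⟩) v = act ⟨a, i⟩ (act ⟨a', i'⟩ v) := by decide +kernel

theorem act_add (h : SD16) (v w : V9) : act h (v + w) = act h v + act h w := raw_add h.a h.i v w
theorem act_mul (h h' : SD16) (v : V9) : act (h * h') v = act h (act h' v) :=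
  raw_mul h.a h.i h'.a h'.i v
theorem act_one (v : V9) : act 1 v = v := rfl

def φ : SD16 →* MulAut (Multiplicative V9) where
  toFun h :=
    { toFun := fun v => Multiplicative.ofAdd (act h v.toAdd)
      invFun := fun v => Multiplicative.ofAdd (act h⁻¹ v.toAdd)
      left_inv := by
        intro v
        show Multiplicative.ofAdd (act h⁻¹ (act h v.toAdd)) = v
        rw [← act_mul, inv_mul_cancel, act_one]; rfl
      right_inv := by
        intro v
        show Multiplicative.ofAdd (act h (act h⁻¹ v.toAdd)) = v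
        rw [← act_mul, mul_inv_cancel, act_one]; rfl
      map_mul' := by
        intro v w
        show Multiplicative.ofAdd (act h (v.toAdd + w.toAdd)) = _
        rw [act_add]; rfl }
  map_one' := by
    apply MulEquiv.ext
    intro v
    rfl
  map_mul' := by
    intro h h'
    apply MulEquiv.ext
    intro v
    show Multiplicative.ofAdd (act (h * h') v.toAdd) = Multiplicative.ofAdd (act h (act h' v.toAdd))
    rw [act_mul]

theorem φ_apply (h : SD16) (v : Multiplicative V9) :
    φ h v = Multiplicative.ofAdd (act h v.toAdd) := rfl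

/-- the group of order 144 -/
abbrev G := Multiplicative V9 ⋊[φ] SD16

instance : Finite G := Finite.of_equiv _ SemidirectProduct.equivProd.symm

theorem card_SD16 : Nat.card SD16 = 16 := by
  have e : SD16 ≃ ZMod 8 × ZMod 2 :=
    { toFun := fun x => (x.a, x.i), invFun := fun p => ⟨p.1, p.2⟩, left_inv := fun _ => rfl,
      right_inv := fun _ => rfl }
  rw [Nat.card_congr e, Nat.card_prod, Nat.card_zmod, Nat.card_zmod]

instance : Group.IsSolvable SD16 := by
  haveI : Fact (Nat.Prime 2) := ⟨Nat.prime_two⟩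
  have h : IsPGroup 2 SD16 := IsPGroup.of_card (n := 4) (by rw [card_SD16]; norm_num)
  haveI := h.isNilpotent
  infer_instance

instance : Group.IsSolvable G :=
  Group.isSolvable_of_ker_le_range (SemidirectProduct.inl : Multiplicative V9 →* G)
    SemidirectProduct.rightHom (by rw [SemidirectProduct.range_inl_eq_ker_rightHom])

def V : Subgroup G := (SemidirectProduct.rightHom : G →* SD16).ker

instance : V.Normal := by unfold V; infer_instance

theorem index_V : V.index = 2 ^ 4 := by
  unfold V
  rw [Subgroup.index_ker, MonoidHom.range_eq_top.2 SemidirectProduct.rightHom_surjective,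
    Subgroup.card_top, card_SD16]
  norm_num

theorem card_V : Nat.card V = 9 := by
  unfold V
  rw [← SemidirectProduct.range_inl_eq_ker_rightHom,
    Nat.card_congr (MonoidHom.ofInjective SemidirectProduct.inl_injective).symm.toEquiv]
  show Nat.card (ZMod 3 × ZMod 3) = 9
  rw [Nat.card_prod, Nat.card_zmod]

def s : SD16 := ⟨0, 1⟩
def a : G := SemidirectProduct.inr s

theorem a_sq : a ^ 2 = 1 := by
  unfold a
  rw [← map_pow]
  have : s ^ 2 = 1 := by decide
  rw [this, map_one]

theorem a_ne : a ≠ 1 := by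
  intro h
  have := congrArg SemidirectProduct.right h
  revert this
  decide

theorem commute_iff (v : Multiplicative V9) :
    Commute (SemidirectProduct.inl v : G) a ↔ act s v.toAdd = v.toAdd := by
  unfold a
  constructor
  · intro h
    have h1 : (SemidirectProduct.inl (φ s v) : G) = SemidirectProduct.inl v := by
      rw [SemidirectProduct.inl_aut, ← h.eq, mul_assoc, ← map_mul, mul_inv_cancel, map_one, mul_one]
    have h2 : φ s v = v := SemidirectProduct.inl_injective h1
    exact h2
  · intro h
    have h1 : φ s v = v := h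
    have h2 := SemidirectProduct.inl_aut (φ := φ) s v
    rw [h1] at h2
    show _ * _ = _ * _
    conv_lhs => rw [h2]
    rw [mul_assoc, ← map_mul, inv_mul_cancel, map_one, mul_one]

set_option maxRecDepth 100000 in
theorem raw_conj : ∀ v : V9, ∃ (b : ZMod 8), act s (act ⟨b, 0⟩ v) = act ⟨b, 0⟩ v := by
  decide +kernel

theorem hconj : ∀ v ∈ V, ∃ x : G, Commute (x * v * x⁻¹) a := by
  intro v hv
  unfold V at hv
  rw [← SemidirectProduct.range_inl_eq_ker_rightHom] at hv
  obtain ⟨n, rfl⟩ := hv
  obtain ⟨b, hb⟩ := raw_conj n.toAdd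
  refine ⟨SemidirectProduct.inr ⟨b, 0⟩, ?_⟩
  rw [← map_inv, ← SemidirectProduct.inl_aut, commute_iff]
  exact hb

theorem main :
    Group.IsSolvable G ∧ Nat.card (Subgroup.zpowers a) = 2 ∧
      (∀ c : G, ∃ g : G, IsConj c g ∧ ((Subgroup.zpowers a).subgroupOf
        (Subgroup.zpowers a ⊔ Subgroup.zpowers g)).IsSubnormal) ∧
      ¬ Subgroup.zpowers a ≤ Cfsg.pCore 2 G := by
  refine ⟨inferInstance, ?_, SubnEx.key V 4 index_V a a_sq hconj, ?_⟩
  · rw [Nat.card_zpowers]
    exact orderOf_eq_prime a_sq a_ne
  · apply SubnEx.not_le_pCore V (by rw [card_V]; decide) a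
      (SemidirectProduct.inl (Multiplicative.ofAdd ((0, 1) : V9)))
    · unfold V
      rw [← SemidirectProduct.range_inl_eq_ker_rightHom]
      exact ⟨_, rfl⟩
    · intro h
      have := (commute_iff _).1 h.symm
      revert this
      decide

end Cfsg.Agent.Lib.Helper19.G144
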