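import Mathlib

namespace Cfsg.Agent.Lib.Helper19.Ham

/-- Transfer of a permutation group configuration from a finite set to `Fin n`. -/
theorem transfer {Ω : Type*} [Finite Ω] (G R : Subgroup (Equiv.Perm Ω)) (hRG : R ≤ G)
    (h1 : MulAction.IsPretransitive R Ω) (h2 : ∀ a : Ω, MulAction.stabilizer R a = ⊥)
    (h3 : MulAction.IsPreprimitive G Ω) (h4 : ¬ MulAction.IsMultiplyPretransitive G Ω 2) :
    ∃ (n : ℕ) (G' R' : Subgroup (Equiv.Perm (Fin n))), R' ≤ G' ∧ Nonempty (R' ≃* R) ∧
      MulAction.IsPretransitive R' (Fin n) ∧ (∀ a : Fin n, MulAction.stabilizer R' a = ⊥) ∧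
      MulAction.IsPreprimitive G' (Fin n) ∧ ¬ MulAction.IsMultiplyPretransitive G' (Fin n) 2 := by
  classical
  obtain ⟨n, ⟨ε⟩⟩ := Finite.exists_equiv_fin Ω
  let φ : Equiv.Perm Ω ≃* Equiv.Perm (Fin n) := ε.permCongrHom
  have hφ : ∀ (g : Equiv.Perm Ω) (a : Ω), φ g (ε a) = ε (g a) := by
    intro g a
    simp [φ, Equiv.permCongrHom]
  let ψ : ∀ H : Subgroup (Equiv.Perm Ω), H ≃* H.map φ.toMonoidHom := fun H => φ.subgroupMap H
  have hψ : ∀ (H : Subgroup (Equiv.Perm Ω)) (h : H), ((ψ H h : H.map φ.toMonoidHom) :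
      Equiv.Perm (Fin n)) = φ h := fun H h => rfl
  let f : ∀ H : Subgroup (Equiv.Perm Ω), Ω →ₑ[ψ H] Fin n := fun H =>
    { toFun := ε
      map_smul' := by
        intro h a
        show ε ((h : Equiv.Perm Ω) a) = ((ψ H h : H.map φ.toMonoidHom) : Equiv.Perm (Fin n)) (ε a)
        rw [hψ, hφ] }
  have hf : ∀ H, Function.Bijective (f H) := fun H => ε.bijective
  refine ⟨n, G.map φ.toMonoidHom, R.map φ.toMonoidHom, Subgroup.map_mono hRG, ⟨(ψ R).symm⟩,
    ?_, ?_, ?_, ?_⟩
  · exact MulAction.IsPretransitive.of_surjective_map (f := f R) (hf R).surjective h1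
  · intro a
    rw [eq_bot_iff]
    intro g hg
    obtain ⟨h, rfl⟩ := (ψ R).surjective g
    obtain ⟨b, rfl⟩ := ε.surjective a
    have h5 : h ∈ MulAction.stabilizer R b := by
      rw [MulAction.mem_stabilizer_iff] at hg ⊢
      have h6 : ((ψ R h : R.map φ.toMonoidHom) : Equiv.Perm (Fin n)) (ε b) = ε b := hg
      rw [hψ, hφ] at h6
      exact ε.injective h6
    rw [h2 b, Subgroup.mem_bot] at h5
    rw [h5, map_one]
    exact Subgroup.mem_bot.2 rfl
  · exact MulAction.IsPreprimitive.of_surjective (f := f G) (hf G).surjective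
  · intro h5
    apply h4
    exact (MulAction.IsPretransitive.of_embedding_congr (f := f G) (ψ G).surjective (hf G)).2 h5

variable {ι : Type*} [Fintype ι] [DecidableEq ι] {A : Type*} [DecidableEq A]

/-- The group of Hamming isometries of `ι → A`. -/
def Iso (ι : Type*) [Fintype ι] (A : Type*) [DecidableEq A] : Subgroup (Equiv.Perm (ι → A)) where
  carrier := {g | ∀ x y, hammingDist (g x) (g y) = hammingDist x y}
  mul_mem' := by
    intro a b ha hb x y
    show hammingDist (a (b x)) (a (b y)) = _
    rw [ha, hb]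
  one_mem' := fun x y => rfl
  inv_mem' := by
    intro a ha x y
    have := ha (a⁻¹ x) (a⁻¹ y)
    simpa using this.symm

theorem mem_Iso {g : Equiv.Perm (ι → A)} :
    g ∈ Iso ι A ↔ ∀ x y, hammingDist (g x) (g y) = hammingDist x y := Iff.rfl

/-- monomial generators -/
def gen (π : Equiv.Perm ι) (τ : ι → Equiv.Perm A) : Equiv.Perm (ι → A) :=
  (Equiv.arrowCongr π (Equiv.refl A)).trans (Equiv.piCongrRight τ)

theorem gen_apply (π : Equiv.Perm ι) (τ : ι → Equiv.Perm A) (z : ι → A) (k : ι) :
    gen π τ z k = τ k (z (π.symm k)) := rfl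

theorem gen_one_apply (τ : ι → Equiv.Perm A) (z : ι → A) (k : ι) :
    gen 1 τ z k = τ k (z k) := rfl

theorem gen_mem (π : Equiv.Perm ι) (τ : ι → Equiv.Perm A) : gen π τ ∈ Iso ι A := by
  intro x y
  have h1 : hammingDist (gen π τ x) (gen π τ y) = hammingDist (x ∘ π.symm) (y ∘ π.symm) :=
    hammingDist_comp (fun k => τ k) (x := x ∘ π.symm) (y := y ∘ π.symm)
      (fun k => (τ k).injective)
  rw [h1]
  unfold hammingDist
  refine Finset.card_equiv π.symm ?_
  intro i
  simp

theorem piCongrRight_mem (τ : ι → Equiv.Perm A) : Equiv.piCongrRight τ ∈ Iso ι A := by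
  intro x y
  exact hammingDist_comp (fun k => τ k) (x := x) (y := y) (fun k => (τ k).injective)

theorem isPretransitive_Iso : MulAction.IsPretransitive (Iso ι A) (ι → A) := by
  constructor
  intro x y
  refine ⟨⟨gen 1 (fun k => Equiv.swap (x k) (y k)), gen_mem _ _⟩, ?_⟩
  funext k
  show gen 1 (fun k => Equiv.swap (x k) (y k)) x k = y k
  rw [gen_one_apply]
  simp

/-- closure under single coordinate changes gives everything -/
theorem eq_univ_of_update {B : Set (ι → A)} {u : ι → A} (hu : u ∈ B)
    (h : ∀ v ∈ B, ∀ j d, Function.update v j d ∈ B) : B = Set.univ := by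
  have key : ∀ s : Finset ι, ∀ v : ι → A, (∀ k, k ∉ s → v k = u k) → v ∈ B := by
    intro s
    induction s using Finset.induction_on with
    | empty =>
      intro v hv
      have : v = u := funext fun k => hv k (by simp)
      rw [this]; exact hu
    | insert a s _ ih =>
      intro v hv
      have h1 : Function.update v a (u a) ∈ B := by
        apply ih
        intro k hk
        by_cases hka : k = a
        · subst hka; simp
        · rw [Function.update_of_ne hka]
          exact hv k (by simp [hka, hk])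
      have h2 := h _ h1 a (v a)
      simpa using h2
  exact Set.eq_univ_of_forall fun v => key Finset.univ v (by simp)

theorem isPreprimitive_Iso (hA : 3 ≤ Nat.card A) :
    MulAction.IsPreprimitive (Iso ι A) (ι → A) := by
  haveI := isPretransitive_Iso (ι := ι) (A := A)
  refine ⟨?_⟩
  intro B hB
  rw [MulAction.isBlock_iff_smul_eq_of_mem] at hB
  have blk : ∀ g ∈ Iso ι A, ∀ a ∈ B, g a ∈ B → ∀ b ∈ B, g b ∈ B := by
    intro g hg a ha hga b hb
    have h1 := hB (g := ⟨g, hg⟩) ha hga
    rw [← h1]
    exact ⟨b, hb, rfl⟩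
  by_cases hs : B.Subsingleton
  · exact Or.inl hs
  right
  rw [Set.not_subsingleton_iff] at hs
  obtain ⟨x, hx, y, hy, hxy⟩ := hs
  obtain ⟨i, hi⟩ : ∃ i, x i ≠ y i := by
    by_contra hcon
    push Not at hcon
    exact hxy (funext hcon)
  haveI : Finite A := Nat.finite_of_card_ne_zero (by omega)
  haveI := Fintype.ofFinite A
  obtain ⟨c, hc⟩ : ∃ c : A, c ∉ ({x i, y i} : Finset A) := by
    by_contra hcon
    push Not at hcon
    have h1 : (Finset.univ : Finset A) ⊆ {x i, y i} := fun c _ => hcon c
    have h2 := Finset.card_le_card h1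
    have h3 : ({x i, y i} : Finset A).card ≤ 2 := Finset.card_le_two
    rw [Finset.card_univ, ← Nat.card_eq_fintype_card] at h2
    omega
  simp only [Finset.mem_insert, Finset.mem_singleton, not_or] at hc
  obtain ⟨hcx, hcy⟩ := hc
  -- step A
  have hA1 : Function.update y i c ∈ B := by
    have h1 := blk (gen 1 (fun k => if k = i then Equiv.swap (y i) c else 1)) (gen_mem _ _) x hx
      (by
        have : gen 1 (fun k => if k = i then Equiv.swap (y i) c else 1) x = x := by
          funext k
          rw [gen_one_apply]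
          by_cases hk : k = i
          · subst hk
            simp only [if_true]
            exact Equiv.swap_apply_of_ne_of_ne hi (Ne.symm hcx)
          · simp [hk]
        rw [this]; exact hx) y hy
    have h2 : gen 1 (fun k => if k = i then Equiv.swap (y i) c else 1) y = Function.update y i c := by
      funext k
      rw [gen_one_apply]
      by_cases hk : k = i
      · subst hk
        simp
      · simp [hk]
    rwa [h2] at h1
  -- step B
  apply eq_univ_of_update hy
  intro u hu j d
  by_cases hd : d = u j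
  · rw [hd, Function.update_eq_self]; exact hu
  obtain ⟨c', hc'⟩ : ∃ c', c' = Equiv.swap (y i) (u j) c := ⟨_, rfl⟩
  have hc'u : c' ≠ u j := by
    rw [hc']
    intro h
    have : c = y i := by
      have := congrArg (Equiv.swap (y i) (u j)) h
      simpa using this
    exact hcy this
  obtain ⟨τ, hτ⟩ : ∃ τ : ι → Equiv.Perm A, τ = fun k =>
      if k = j then Equiv.swap d c' * Equiv.swap (y i) (u j)
      else Equiv.swap (y (Equiv.swap i j k)) (u k) := ⟨_, rfl⟩
  have h1 : gen (Equiv.swap i j) τ y = u := by
    funext k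
    rw [gen_apply, hτ]
    by_cases hk : k = j
    · subst hk
      simp only [if_true, Equiv.symm_swap, Equiv.swap_apply_right, Equiv.Perm.mul_apply,
        Equiv.swap_apply_left]
      exact Equiv.swap_apply_of_ne_of_ne (Ne.symm hd) (Ne.symm hc'u)
    · simp [hk]
  have h2 : gen (Equiv.swap i j) τ (Function.update y i c) = Function.update u j d := by
    funext k
    rw [gen_apply, hτ]
    by_cases hk : k = j
    · subst hk
      simp only [if_true, Equiv.symm_swap, Equiv.swap_apply_right, Equiv.Perm.mul_apply,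
        Function.update_self, ← hc', Equiv.swap_apply_right]
    · have hk2 : Equiv.swap i j k ≠ i := by
        intro h
        apply hk
        have := congrArg (Equiv.swap i j) h
        simpa using this
      simp [hk, hk2]
  have h3 := blk (gen (Equiv.swap i j) τ) (gen_mem _ _) y hy (by rw [h1]; exact hu) _ hA1
  rwa [h2] at h3

theorem not_two_Iso (hι : 2 ≤ Fintype.card ι) (hA : 2 ≤ Nat.card A) :
    ¬ MulAction.IsMultiplyPretransitive (Iso ι A) (ι → A) 2 := by
  intro h
  rw [MulAction.is_two_pretransitive_iff] at h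
  haveI : Finite A := Nat.finite_of_card_ne_zero (by omega)
  haveI : Nontrivial A := by
    rw [← Finite.one_lt_card_iff_nontrivial]; omega
  haveI : Nontrivial ι := by
    rw [← Fintype.one_lt_card_iff_nontrivial]; omega
  obtain ⟨a0, a1, ha⟩ := exists_pair_ne A
  obtain ⟨i, j, hij⟩ := exists_pair_ne ι
  obtain ⟨x, hx⟩ : ∃ x : ι → A, x = fun _ => a0 := ⟨_, rfl⟩
  obtain ⟨y, hy⟩ : ∃ y : ι → A, y = Function.update x i a1 := ⟨_, rfl⟩
  obtain ⟨z, hz⟩ : ∃ z : ι → A, z = Function.update y j a1 := ⟨_, rfl⟩
  have hxy : x ≠ y := by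
    intro h
    have := congrFun h i
    rw [hy, hx] at this
    simp at this
    exact ha this
  have hxz : x ≠ z := by
    intro h
    have := congrFun h j
    rw [hz, hx] at this
    simp at this
    exact ha this
  obtain ⟨g, hg1, hg2⟩ := h hxy hxz
  have h1 := g.2 x y
  have h2 : (g : Equiv.Perm (ι → A)) x = x := hg1
  have h3 : (g : Equiv.Perm (ι → A)) y = z := hg2
  rw [h2, h3] at h1
  have h4 : hammingDist x y < hammingDist x z := by
    unfold hammingDist
    apply Finset.card_lt_card
    rw [Finset.ssubset_iff_of_subset]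
    · refine ⟨j, ?_, ?_⟩
      · simp [hz, hx, ha]
      · simp [hy, hx, hij.symm]
    · intro k hk
      simp only [Finset.mem_filter, Finset.mem_univ, true_and] at hk ⊢
      by_cases hkj : k = j
      · subst hkj
        simp [hz, hx, ha]
      · rw [hz, Function.update_of_ne hkj]
        exact hk
  omega

end Cfsg.Agent.Lib.Helper19.Ham
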