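import Mathlib
import Cfsg.Agent.S2578
import Cfsg.Agent.H14.Unipotent

set_option autoImplicit false

namespace Cfsg.Agent.Lib.Helper19.Jordan

universe u

section lin
variable {F : Type*} [Field F] {V : Type*} [AddCommGroup V] [Module F V]
  {V' : Type*} [AddCommGroup V'] [Module F V']

/-- the dimension of the kernel of the `j`-th power -/
noncomputable def kap (N : Module.End F V) (j : ℕ) : ℕ := Module.finrank F (LinearMap.ker (N ^ j))

theorem pow_intertwine (N : Module.End F V) (N' : Module.End F V') (e : V →ₗ[F] V')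
    (he : ∀ x, e (N x) = N' (e x)) (j : ℕ) (x : V) : e ((N ^ j) x) = (N' ^ j) (e x) := by
  induction j generalizing x with
  | zero => simp
  | succ j ih => rw [pow_succ, pow_succ, Module.End.mul_apply, Module.End.mul_apply, ih, he]

theorem kap_conj (N : Module.End F V) (N' : Module.End F V') (e : V ≃ₗ[F] V')
    (he : ∀ x, e (N x) = N' (e x)) (j : ℕ) : kap N j = kap N' j := by
  have h : LinearMap.ker (N' ^ j) = (LinearMap.ker (N ^ j)).map (e : V →ₗ[F] V') := by
    ext y
    rw [Submodule.mem_map, LinearMap.mem_ker]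
    constructor
    · intro hy
      refine ⟨e.symm y, ?_, by simp⟩
      rw [LinearMap.mem_ker]
      apply e.injective
      have := pow_intertwine N N' (e : V →ₗ[F] V') he j (e.symm y)
      simp only [LinearEquiv.coe_coe, LinearEquiv.apply_symm_apply] at this
      rw [this, hy, map_zero]
    · rintro ⟨x, hx, rfl⟩
      rw [LinearMap.mem_ker] at hx
      have := pow_intertwine N N' (e : V →ₗ[F] V') he j x
      rw [← this, hx, map_zero]
  unfold kap
  rw [h, LinearEquiv.finrank_map_eq]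

theorem prodMap_pow (A : Module.End F V) (B : Module.End F V') (j : ℕ) :
    (LinearMap.prodMap A B : Module.End F (V × V')) ^ j = LinearMap.prodMap (A ^ j) (B ^ j) := by
  induction j with
  | zero => rw [pow_zero, pow_zero, pow_zero, LinearMap.prodMap_one]
  | succ j ih => rw [pow_succ, pow_succ, pow_succ, ih, LinearMap.prodMap_mul]

theorem finrank_subprod [FiniteDimensional F V] [FiniteDimensional F V'] (P : Submodule F V)
    (Q : Submodule F V') : Module.finrank F (P.prod Q) = Module.finrank F P + Module.finrank F Q := by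
  rw [← Module.finrank_prod]
  apply LinearEquiv.finrank_eq
  exact
    { toFun := fun x => (⟨x.1.1, x.2.1⟩, ⟨x.1.2, x.2.2⟩)
      map_add' := fun _ _ => rfl
      map_smul' := fun _ _ => rfl
      invFun := fun y => ⟨(y.1.1, y.2.1), ⟨y.1.2, y.2.2⟩⟩
      left_inv := fun _ => rfl
      right_inv := fun _ => rfl }

theorem kap_prod [FiniteDimensional F V] [FiniteDimensional F V'] (A : Module.End F V)
    (B : Module.End F V') (j : ℕ) :
    kap (LinearMap.prodMap A B : Module.End F (V × V')) j = kap A j + kap B j := by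
  unfold kap
  rw [prodMap_pow, LinearMap.ker_prodMap, finrank_subprod]

theorem kap_split [FiniteDimensional F V] (N : Module.End F V) {C W : Submodule F V}
    (hC : ∀ x ∈ C, N x ∈ C) (hW : ∀ x ∈ W, N x ∈ W) (hc : IsCompl C W) (j : ℕ) :
    kap N j = kap (N.restrict hC : Module.End F C) j + kap (N.restrict hW : Module.End F W) j := by
  rw [← kap_prod]
  symm
  apply kap_conj _ _ (Submodule.prodEquivOfIsCompl C W hc)
  rintro ⟨w, w'⟩
  show ((N.restrict hC : Module.End F C) w : V) + ((N.restrict hW : Module.End F W) w' : V) =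
    N ((w : V) + (w' : V))
  rw [map_add]
  rfl

theorem pow_eq_zero_iff_kap [FiniteDimensional F V] (N : Module.End F V) (j : ℕ) :
    N ^ j = 0 ↔ kap N j = Module.finrank F V := by
  unfold kap
  constructor
  · intro h
    rw [h, LinearMap.ker_zero, finrank_top]
  · intro h
    exact LinearMap.ker_eq_top.1 (Submodule.eq_top_of_finrank_eq h)

theorem kap_le [FiniteDimensional F V] (N : Module.End F V) (j : ℕ) :
    kap N j ≤ Module.finrank F V := Submodule.finrank_le _

/-- a nilpotent operator of maximal index -/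
theorem kap_reg [FiniteDimensional F V] (N : Module.End F V) (m : ℕ) (hm : 1 ≤ m)
    (hV : Module.finrank F V = m) (h0 : N ^ m = 0) (h1 : N ^ (m - 1) ≠ 0) (j : ℕ) :
    kap N j = min m j := by
  have hstrict : ∀ j, j < m → kap N j < kap N (j + 1) := by
    intro j hj
    apply Submodule.finrank_lt_finrank_of_lt
    apply lt_of_le_of_ne
    · intro x hx
      rw [LinearMap.mem_ker] at hx ⊢
      rw [pow_succ', Module.End.mul_apply, hx, map_zero]
    · intro heq
      have h2 := Module.End.ker_pow_constant heq (m - j)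
      rw [show j + (m - j) = m by omega, h0, LinearMap.ker_zero] at h2
      have h3 : N ^ j = 0 := LinearMap.ker_eq_top.1 h2
      apply h1
      rw [show m - 1 = (m - 1 - j) + j by omega, pow_add, h3, mul_zero]
  have hgrow : ∀ i j, j + i ≤ m → kap N j + i ≤ kap N (j + i) := by
    intro i
    induction i with
    | zero => intro j _; simp
    | succ i ih =>
      intro j hj
      have h2 := ih j (by omega)
      have h3 := hstrict (j + i) (by omega)
      rw [show j + (i + 1) = j + i + 1 from rfl]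
      omega
  have hm' : kap N m = m := ((pow_eq_zero_iff_kap N m).1 h0).trans hV
  rcases le_total m j with hj | hj
  · rw [min_eq_left hj, ← hV]
    apply (pow_eq_zero_iff_kap N j).1
    rw [show j = (j - m) + m by omega, pow_add, h0, mul_zero]
  · rw [min_eq_right hj]
    have h2 := hgrow j 0 (by omega)
    have h3 := hgrow (m - j) j (by omega)
    rw [show j + (m - j) = m by omega, hm'] at h3
    rw [zero_add] at h2
    omega

theorem decomp [FiniteDimensional F V] (N : Module.End F V) (m : ℕ) (hm : 1 ≤ m) (h0 : N ^ m = 0)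
    (h1 : N ^ (m - 1) ≠ 0) :
    ∃ (C W : Submodule F V) (hC : ∀ x ∈ C, N x ∈ C) (hW : ∀ x ∈ W, N x ∈ W), IsCompl C W ∧
      Module.finrank F C = m ∧ (N.restrict hC : Module.End F C) ^ (m - 1) ≠ 0 := by
  classical
  obtain ⟨v, hv⟩ : ∃ v, (N ^ (m - 1)) v ≠ 0 := by
    by_contra hcon
    push Not at hcon
    exact h1 (LinearMap.ext hcon)
  obtain ⟨φ, hφ⟩ : ∃ φ : Module.Dual F V, φ ((N ^ (m - 1)) v) ≠ 0 := by
    by_contra hcon
    push Not at hcon
    exact hv ((Module.forall_dual_apply_eq_zero_iff F _).1 hcon)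
  have hli := Cfsg.Agent.S2578.linInd N m h0 v hv
  obtain ⟨C, hCdef⟩ : ∃ C : Submodule F V,
    C = Submodule.span F (Set.range (fun i : Fin m => (N ^ (i : ℕ)) v)) := ⟨_, rfl⟩
  obtain ⟨Φ, hΦ⟩ : ∃ Φ : V →ₗ[F] (Fin m → F), ∀ x j, Φ x j = φ ((N ^ (j : ℕ)) x) :=
    ⟨LinearMap.pi (fun j : Fin m => φ ∘ₗ (N ^ (j : ℕ))), fun _ _ => rfl⟩
  obtain ⟨W, hWdef⟩ : ∃ W : Submodule F V, W = LinearMap.ker Φ := ⟨_, rfl⟩
  have hWmem : ∀ x, x ∈ W ↔ ∀ j : Fin m, φ ((N ^ (j : ℕ)) x) = 0 := by
    intro x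
    rw [hWdef, LinearMap.mem_ker]
    constructor
    · intro h j
      rw [← hΦ, h]
      rfl
    · intro h
      funext j
      rw [hΦ, h j]
      rfl
  have hC : ∀ x ∈ C, N x ∈ C := by
    intro x hx
    rw [hCdef] at hx
    induction hx using Submodule.span_induction with
    | mem x hx =>
      obtain ⟨i, rfl⟩ := hx
      by_cases hi : (i : ℕ) + 1 < m
      · rw [hCdef]
        apply Submodule.subset_span
        refine ⟨⟨i + 1, hi⟩, ?_⟩
        show (N ^ ((i : ℕ) + 1)) v = N ((N ^ (i : ℕ)) v)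
        rw [pow_succ', Module.End.mul_apply]
      · have : N ((N ^ (i : ℕ)) v) = 0 := by
          rw [← Module.End.mul_apply, ← pow_succ', show (i : ℕ) + 1 = m by omega, h0]; rfl
        show N ((N ^ (i : ℕ)) v) ∈ C
        rw [this]; exact C.zero_mem
    | zero => rw [map_zero]; exact C.zero_mem
    | add x y _ _ hx hy => rw [map_add]; exact C.add_mem hx hy
    | smul a x _ hx => rw [map_smul]; exact C.smul_mem a hx
  have hW : ∀ x ∈ W, N x ∈ W := by
    intro x hx
    rw [hWmem] at hx ⊢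
    intro j
    rw [← Module.End.mul_apply, ← pow_succ]
    by_cases hj : (j : ℕ) + 1 < m
    · exact hx ⟨j + 1, hj⟩
    · rw [show (j : ℕ) + 1 = m by omega, h0]; simp
  have hCfr : Module.finrank F C = m := by
    have := finrank_span_eq_card hli
    rw [hCdef]
    simpa using this
  have hdisj : C ⊓ W = ⊥ := by
    rw [eq_bot_iff]
    rintro x ⟨hxC, hxW⟩
    rw [SetLike.mem_coe, hCdef] at hxC
    obtain ⟨c, rfl⟩ := (Submodule.mem_span_range_iff_exists_fun F).1 hxC
    rw [SetLike.mem_coe, hWmem] at hxW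
    have key : ∀ k : ℕ, ∀ i : Fin m, (i : ℕ) = k → c i = 0 := by
      intro k
      induction k using Nat.strong_induction_on with
      | _ k ih =>
        intro i hi
        have hin := i.2
        have h1 : φ ((N ^ (m - 1 - k)) (∑ i : Fin m, c i • (N ^ (i : ℕ)) v)) = 0 :=
          hxW ⟨m - 1 - k, by omega⟩
        rw [map_sum, map_sum] at h1
        rw [Finset.sum_eq_single i] at h1
        · rw [map_smul, ← Module.End.mul_apply, ← pow_add, hi, show m - 1 - k + k = m - 1 by omega,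
            map_smul, smul_eq_mul] at h1
          exact (mul_eq_zero.1 h1).resolve_right hφ
        · intro j _ hj
          have hjn := j.2
          rcases lt_or_gt_of_ne (fun h : (j : ℕ) = k => hj (Fin.ext (h.trans hi.symm))) with h | h
          · rw [ih j h j rfl, zero_smul, map_zero, map_zero]
          · rw [map_smul, ← Module.End.mul_apply, ← pow_add,
              show m - 1 - k + (j : ℕ) = m + ((j : ℕ) - k - 1) by omega, pow_add, h0, zero_mul]
            simp
        · intro h; exact absurd (Finset.mem_univ i) h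
    rw [Submodule.mem_bot]
    apply Finset.sum_eq_zero
    intro i _
    rw [key i i rfl, zero_smul]
  have hWfr : Module.finrank F V ≤ m + Module.finrank F W := by
    have h2 := LinearMap.finrank_range_add_finrank_ker Φ
    have h3 : Module.finrank F (LinearMap.range Φ) ≤ m := by
      have := Submodule.finrank_le (LinearMap.range Φ)
      simpa using this
    rw [hWdef]
    omega
  have hsup : C ⊔ W = ⊤ := by
    apply Submodule.eq_top_of_finrank_eq
    have h2 := Submodule.finrank_sup_add_finrank_inf_eq C W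
    rw [hdisj, finrank_bot, hCfr] at h2
    have h3 := Submodule.finrank_le (C ⊔ W)
    omega
  refine ⟨C, W, hC, hW, ⟨disjoint_iff.2 hdisj, codisjoint_iff.2 hsup⟩, hCfr, ?_⟩
  intro hz
  have hvC : v ∈ C := by
    rw [hCdef]
    exact Submodule.subset_span ⟨⟨0, hm⟩, by simp⟩
  have h2 : ((((N.restrict hC : Module.End F C) ^ (m - 1)) ⟨v, hvC⟩ : C) : V) = 0 := by
    rw [hz]; rfl
  rw [Module.End.pow_restrict] at h2
  exact hv h2

theorem restrict_pow_eq_zero (N : Module.End F V) {C : Submodule F V} (hC : ∀ x ∈ C, N x ∈ C) (k : ℕ)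
    (h : N ^ k = 0) : (N.restrict hC : Module.End F C) ^ k = 0 := by
  rw [Module.End.pow_restrict]
  ext x
  show (N ^ k) (x : V) = 0
  rw [h]
  rfl

theorem exists_index [Nontrivial V] (N : Module.End F V) (hn : IsNilpotent N) :
    ∃ m, 1 ≤ m ∧ N ^ m = 0 ∧ N ^ (m - 1) ≠ 0 := by
  classical
  have h1 : 1 ≤ Nat.find hn := by
    rw [Nat.one_le_iff_ne_zero]
    intro h
    have := Nat.find_spec hn
    rw [h, pow_zero] at this
    exact one_ne_zero this
  exact ⟨Nat.find hn, h1, Nat.find_spec hn, Nat.find_min hn (by omega)⟩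

theorem glue (N₁ : Module.End F V) (N₂ : Module.End F V') {C₁ W₁ : Submodule F V}
    {C₂ W₂ : Submodule F V'} (hC₁ : ∀ x ∈ C₁, N₁ x ∈ C₁) (hW₁ : ∀ x ∈ W₁, N₁ x ∈ W₁)
    (hC₂ : ∀ x ∈ C₂, N₂ x ∈ C₂) (hW₂ : ∀ x ∈ W₂, N₂ x ∈ W₂) (hc₁ : IsCompl C₁ W₁)
    (hc₂ : IsCompl C₂ W₂) (eW : C₁ ≃ₗ[F] C₂)
    (heW : ∀ x, eW ((N₁.restrict hC₁ : Module.End F C₁) x) = (N₂.restrict hC₂ : Module.End F C₂) (eW x))
    (e' : W₁ ≃ₗ[F] W₂)
    (he' : ∀ x, e' ((N₁.restrict hW₁ : Module.End F W₁) x) = (N₂.restrict hW₂ : Module.End F W₂) (e' x)) :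
    ∃ e : V ≃ₗ[F] V', ∀ v, e (N₁ v) = N₂ (e v) := by
  refine ⟨(Submodule.prodEquivOfIsCompl C₁ W₁ hc₁).symm.trans ((eW.prodCongr e').trans
    (Submodule.prodEquivOfIsCompl C₂ W₂ hc₂)), ?_⟩
  intro x
  obtain ⟨⟨w, w'⟩, rfl⟩ := (Submodule.prodEquivOfIsCompl C₁ W₁ hc₁).surjective x
  have h1 : N₁ ((Submodule.prodEquivOfIsCompl C₁ W₁ hc₁) (w, w')) =
      (Submodule.prodEquivOfIsCompl C₁ W₁ hc₁)
        ((N₁.restrict hC₁ : Module.End F C₁) w, (N₁.restrict hW₁ : Module.End F W₁) w') := by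
    show N₁ ((w : V) + (w' : V)) = _
    rw [map_add]
    rfl
  rw [h1]
  simp only [LinearEquiv.trans_apply, LinearEquiv.symm_apply_apply]
  show ((eW ((N₁.restrict hC₁ : Module.End F C₁) w) : C₂) : V') +
    ((e' ((N₁.restrict hW₁ : Module.End F W₁) w') : W₂) : V') =
      N₂ (((eW w : C₂) : V') + ((e' w' : W₂) : V'))
  rw [heW, he', map_add]
  rfl

end lin

section comb

/-- the kernel dimensions predicted by a multiset of block sizes -/
def fl (l : Multiset ℕ) (j : ℕ) : ℕ := (l.map (fun a => min a j)).sum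

theorem fl_zero (j : ℕ) : fl 0 j = 0 := by simp [fl]

theorem fl_cons (a : ℕ) (l : Multiset ℕ) (j : ℕ) : fl (a ::ₘ l) j = min a j + fl l j := by simp [fl]

theorem fl_succ (l : Multiset ℕ) (j : ℕ) : fl l (j + 1) = fl l j + l.countP (j < ·) := by
  induction l using Multiset.induction_on with
  | empty => simp [fl]
  | cons a l ih =>
    rw [fl_cons, fl_cons, ih, Multiset.countP_cons]
    split_ifs with h <;> omega

theorem countP_succ (l : Multiset ℕ) (j : ℕ) :
    l.countP (j < ·) = l.count (j + 1) + l.countP (j + 1 < ·) := by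
  induction l using Multiset.induction_on with
  | empty => simp
  | cons a l ih =>
    rw [Multiset.countP_cons, Multiset.countP_cons, Multiset.count_cons, ih]
    split_ifs <;> omega

theorem fl_inj (l l' : Multiset ℕ) (h : ∀ a ∈ l, 1 ≤ a) (h' : ∀ a ∈ l', 1 ≤ a)
    (hf : ∀ j, fl l j = fl l' j) : l = l' := by
  rw [Multiset.ext]
  intro a
  cases a with
  | zero =>
    rw [Multiset.count_eq_zero_of_notMem, Multiset.count_eq_zero_of_notMem]
    · intro h0
      have := h' 0 h0
      omega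
    · intro h0
      have := h 0 h0
      omega
  | succ j =>
    have a1 := fl_succ l j
    have a2 := fl_succ l (j + 1)
    have a3 := fl_succ l' j
    have a4 := fl_succ l' (j + 1)
    have a5 := countP_succ l j
    have a6 := countP_succ l' j
    have a7 := hf j
    have a8 := hf (j + 1)
    have a9 := hf (j + 1 + 1)
    omega

theorem fl_le_sum (l : Multiset ℕ) (j : ℕ) : fl l j ≤ l.sum := by
  induction l using Multiset.induction_on with
  | empty => simp [fl]
  | cons a l ih =>
    rw [fl_cons, Multiset.sum_cons]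
    omega

theorem fl_eq_sum_iff (l : Multiset ℕ) (j : ℕ) : fl l j = l.sum ↔ ∀ a ∈ l, a ≤ j := by
  induction l using Multiset.induction_on with
  | empty => simp [fl]
  | cons a l ih =>
    rw [fl_cons, Multiset.sum_cons, Multiset.forall_mem_cons, ← ih]
    have := fl_le_sum l j
    omega

theorem fl_eq_sum (l : Multiset ℕ) (j : ℕ) (hj : l.sum ≤ j) : fl l j = l.sum := by
  rw [fl_eq_sum_iff]
  intro a ha
  exact (Multiset.le_sum_of_mem ha).trans hj

end comb

section main

variable {F : Type*} [Field F]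

theorem type_sum {V : Type*} [AddCommGroup V] [Module F V] [FiniteDimensional F V]
    (N : Module.End F V) (hn : IsNilpotent N) (l : Multiset ℕ) (hk : ∀ j, kap N j = fl l j) :
    l.sum = Module.finrank F V := by
  obtain ⟨k, hk0⟩ := hn
  have h1 : N ^ (k + l.sum) = 0 := by rw [pow_add, hk0, zero_mul]
  rw [pow_eq_zero_iff_kap, hk, fl_eq_sum l _ (by omega)] at h1
  exact h1

theorem conj_of_kap (d : ℕ) : ∀ (V₁ V₂ : Type u) [AddCommGroup V₁] [Module F V₁]
    [FiniteDimensional F V₁] [AddCommGroup V₂] [Module F V₂] [FiniteDimensional F V₂]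
    (N₁ : Module.End F V₁) (N₂ : Module.End F V₂), Module.finrank F V₁ = d → IsNilpotent N₁ →
    IsNilpotent N₂ → (∀ j, kap N₁ j = kap N₂ j) → ∃ e : V₁ ≃ₗ[F] V₂, ∀ v, e (N₁ v) = N₂ (e v) := by
  induction d using Nat.strong_induction_on with
  | _ d ih =>
    intro V₁ V₂ _ _ _ _ _ _ N₁ N₂ hd hn₁ hn₂ hk
    have hd2 : Module.finrank F V₂ = d := by
      obtain ⟨k₁, hk₁⟩ := hn₁
      obtain ⟨k₂, hk₂⟩ := hn₂
      have h1 : N₁ ^ (k₁ + k₂) = 0 := by rw [pow_add, hk₁, zero_mul]
      have h2 : N₂ ^ (k₁ + k₂) = 0 := by rw [pow_add, hk₂, mul_zero]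
      rw [pow_eq_zero_iff_kap] at h1 h2
      rw [← h2, ← hk, h1, hd]
    by_cases htriv : Subsingleton V₁
    · have h0 : d = 0 := by rw [← hd]; exact Module.finrank_zero_of_subsingleton
      haveI : Subsingleton V₂ := Module.finrank_zero_iff.1 (by rw [hd2, h0])
      exact ⟨LinearEquiv.ofFinrankEq V₁ V₂ (by rw [hd, hd2]), fun v => Subsingleton.elim _ _⟩
    · haveI : Nontrivial V₁ := not_subsingleton_iff_nontrivial.1 htriv
      obtain ⟨m, hm, hm0, hm1⟩ := exists_index N₁ hn₁
      have hm0' : N₂ ^ m = 0 := by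
        rw [pow_eq_zero_iff_kap] at hm0 ⊢
        rw [← hk, hm0, hd, hd2]
      have hm1' : N₂ ^ (m - 1) ≠ 0 := by
        intro h
        apply hm1
        rw [pow_eq_zero_iff_kap] at h ⊢
        rw [hk, h, hd, hd2]
      obtain ⟨C₁, W₁, hC₁, hW₁, hc₁, hf₁, hr₁⟩ := decomp N₁ m hm hm0 hm1
      obtain ⟨C₂, W₂, hC₂, hW₂, hc₂, hf₂, hr₂⟩ := decomp N₂ m hm hm0' hm1'
      have hkC₁ := kap_reg (N₁.restrict hC₁ : Module.End F C₁) m hm hf₁
        (restrict_pow_eq_zero N₁ hC₁ m hm0) hr₁
      have hkC₂ := kap_reg (N₂.restrict hC₂ : Module.End F C₂) m hm hf₂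
        (restrict_pow_eq_zero N₂ hC₂ m hm0') hr₂
      obtain ⟨eC, heC⟩ := Cfsg.Agent.S2578.regular_conj m hm hf₁ hf₂
        (N₁.restrict hC₁ : Module.End F C₁) (N₂.restrict hC₂ : Module.End F C₂)
        (restrict_pow_eq_zero N₁ hC₁ m hm0) (restrict_pow_eq_zero N₂ hC₂ m hm0')
        (by have := hkC₁ 1; rw [kap, pow_one] at this; rw [this]; omega)
        (by have := hkC₂ 1; rw [kap, pow_one] at this; rw [this]; omega)
      have hlt : Module.finrank F W₁ < d := by
        have h3 := Submodule.finrank_add_eq_of_isCompl hc₁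
        omega
      obtain ⟨k₁, hk₁⟩ := hn₁
      obtain ⟨k₂, hk₂⟩ := hn₂
      obtain ⟨e', he'⟩ := ih _ hlt W₁ W₂ (N₁.restrict hW₁) (N₂.restrict hW₂) rfl
        ⟨k₁, restrict_pow_eq_zero N₁ hW₁ k₁ hk₁⟩ ⟨k₂, restrict_pow_eq_zero N₂ hW₂ k₂ hk₂⟩
        (fun j => by
          have h1 := kap_split N₁ hC₁ hW₁ hc₁ j
          have h2 := kap_split N₂ hC₂ hW₂ hc₂ j
          rw [hkC₁] at h1
          rw [hkC₂] at h2
          have := hk j
          omega)
      exact glue N₁ N₂ hC₁ hW₁ hC₂ hW₂ hc₁ hc₂ eC heC e' he'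

theorem exists_type (d : ℕ) : ∀ (V : Type u) [AddCommGroup V] [Module F V]
    [FiniteDimensional F V] (N : Module.End F V), Module.finrank F V = d → IsNilpotent N →
    ∃ l : Multiset ℕ, (∀ a ∈ l, 1 ≤ a) ∧ ∀ j, kap N j = fl l j := by
  induction d using Nat.strong_induction_on with
  | _ d ih =>
    intro V _ _ _ N hd hn
    by_cases htriv : Subsingleton V
    · refine ⟨0, by simp, fun j => ?_⟩
      rw [fl_zero]
      have h0 : Module.finrank F V = 0 := Module.finrank_zero_of_subsingleton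
      have := kap_le N j
      omega
    · haveI : Nontrivial V := not_subsingleton_iff_nontrivial.1 htriv
      obtain ⟨m, hm, hm0, hm1⟩ := exists_index N hn
      obtain ⟨C, W, hC, hW, hc, hf, hr⟩ := decomp N m hm hm0 hm1
      have hkC := kap_reg (N.restrict hC : Module.End F C) m hm hf
        (restrict_pow_eq_zero N hC m hm0) hr
      have hlt : Module.finrank F W < d := by
        have h3 := Submodule.finrank_add_eq_of_isCompl hc
        omega
      obtain ⟨k, hk⟩ := hn
      obtain ⟨l, hl, hl'⟩ := ih _ hlt W (N.restrict hW) rfl ⟨k, restrict_pow_eq_zero N hW k hk⟩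
      refine ⟨m ::ₘ l, ?_, fun j => ?_⟩
      · intro a ha
        rcases Multiset.mem_cons.1 ha with rfl | ha
        · exact hm
        · exact hl a ha
      · rw [kap_split N hC hW hc j, hkC, hl', fl_cons]

theorem kap_jb (a : ℕ) (ha : 1 ≤ a) (j : ℕ) :
    kap (Matrix.toLinAlgEquiv' (Cfsg.Agent.S2578.jb F a) : Module.End F (Fin a → F)) j = min a j := by
  classical
  apply kap_reg _ a ha (by simp)
  · rw [← map_pow, Cfsg.Agent.S2578.jb_pow, map_zero]
  · rw [← map_pow]
    intro h
    have h1 := congrFun (congrArg (fun f : Module.End F (Fin a → F) =>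
      f (Pi.single (⟨a - 1, by omega⟩ : Fin a) (1 : F))) h) ⟨0, by omega⟩
    simp only [Matrix.toLinAlgEquiv'_apply] at h1
    rw [Cfsg.Agent.S2578.jb_pow_mulVec, dif_pos (by simp; omega)] at h1
    simp at h1

theorem exists_model (F : Type u) [Field F] (l : Multiset ℕ) (hl : ∀ a ∈ l, 1 ≤ a) :
    ∃ (V : Type u) (_ : AddCommGroup V) (_ : Module F V) (_ : FiniteDimensional F V)
      (N : Module.End F V), IsNilpotent N ∧ ∀ j, kap N j = fl l j := by
  induction l using Multiset.induction_on with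
  | empty =>
    refine ⟨PUnit, inferInstance, inferInstance, inferInstance, 0, ⟨1, by simp⟩, fun j => ?_⟩
    rw [fl_zero]
    have h0 : Module.finrank F PUnit.{u+1} = 0 := Module.finrank_zero_of_subsingleton
    have := kap_le (0 : Module.End F PUnit.{u+1}) j
    omega
  | cons a l ih =>
    obtain ⟨V, i1, i2, i3, N, ⟨k, hN⟩, hk⟩ := ih (fun b hb => hl b (Multiset.mem_cons_of_mem hb))
    refine ⟨(Fin a → F) × V, inferInstance, inferInstance, inferInstance,
      LinearMap.prodMap (Matrix.toLinAlgEquiv' (Cfsg.Agent.S2578.jb F a) : Module.End F (Fin a → F)) N,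
      ⟨a + k, ?_⟩, fun j => ?_⟩
    · rw [prodMap_pow, pow_add N, hN, mul_zero, pow_add, ← map_pow, Cfsg.Agent.S2578.jb_pow, map_zero,
        zero_mul, LinearMap.prodMap_zero]
    · rw [kap_prod, kap_jb a (hl a (Multiset.mem_cons_self a l)), hk, fl_cons]

end main

section gl

variable {F : Type u} [Field F] {n : ℕ}

/-- kernel dimensions of the powers of `g - 1` -/
noncomputable def kg (g : GL (Fin n) F) (j : ℕ) : ℕ :=
  kap (Matrix.toLinAlgEquiv' ((g : Matrix (Fin n) (Fin n) F) - 1) : Module.End F (Fin n → F)) j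

theorem nilp_iff (M : Matrix (Fin n) (Fin n) F) (k : ℕ) :
    M ^ k = 0 ↔ (Matrix.toLinAlgEquiv' M : Module.End F (Fin n → F)) ^ k = 0 := by
  rw [← map_pow, map_eq_zero_iff _ (Matrix.toLinAlgEquiv' (R := F) (n := Fin n)).injective]

theorem pow_eq_zero_iff_kg (g : GL (Fin n) F) (k : ℕ) :
    ((g : Matrix (Fin n) (Fin n) F) - 1) ^ k = 0 ↔ kg g k = n := by
  rw [nilp_iff, pow_eq_zero_iff_kap, kg, Module.finrank_fin_fun]

theorem exists_gl (μ : Nat.Partition n) :
    ∃ g : GL (Fin n) F, IsNilpotent ((g : Matrix (Fin n) (Fin n) F) - 1) ∧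
      ∀ j, kg g j = fl μ.parts j := by
  obtain ⟨V, i1, i2, i3, N, hN, hk⟩ := exists_model F μ.parts (fun a ha => μ.parts_pos ha)
  have hfr : Module.finrank F V = n := by rw [← type_sum N hN _ hk, μ.parts_sum]
  let e : V ≃ₗ[F] (Fin n → F) := LinearEquiv.ofFinrankEq _ _ (by rw [hfr, Module.finrank_fin_fun])
  obtain ⟨M, hM⟩ : ∃ M : Matrix (Fin n) (Fin n) F,
      (Matrix.toLinAlgEquiv' M : Module.End F (Fin n → F)) = e.conj N :=
    ⟨Matrix.toLinAlgEquiv'.symm (e.conj N), by simp⟩
  have hkM : ∀ j, kap (Matrix.toLinAlgEquiv' M : Module.End F (Fin n → F)) j = fl μ.parts j := by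
    intro j
    rw [← hk, hM]
    symm
    apply kap_conj N _ e
    intro x
    simp [LinearEquiv.conj_apply]
  have hMn : IsNilpotent M := by
    refine ⟨n, ?_⟩
    rw [nilp_iff, pow_eq_zero_iff_kap, hkM, Module.finrank_fin_fun, fl_eq_sum _ _ (by rw [μ.parts_sum]),
      μ.parts_sum]
  refine ⟨hMn.isUnit_one_add.unit, ?_, ?_⟩
  · rw [IsUnit.unit_spec, add_sub_cancel_left]
    exact hMn
  · intro j
    rw [kg, IsUnit.unit_spec, add_sub_cancel_left]
    exact hkM j

theorem exists_partition (g : GL (Fin n) F) (hg : IsNilpotent ((g : Matrix (Fin n) (Fin n) F) - 1)) :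
    ∃ μ : Nat.Partition n, ∀ j, kg g j = fl μ.parts j := by
  have hn : IsNilpotent
      (Matrix.toLinAlgEquiv' ((g : Matrix (Fin n) (Fin n) F) - 1) : Module.End F (Fin n → F)) :=
    hg.map _
  obtain ⟨l, hl, hk⟩ := exists_type _ (Fin n → F) _ rfl hn
  exact ⟨⟨l, fun {i} hi => hl i hi, by rw [type_sum _ hn l hk, Module.finrank_fin_fun]⟩, hk⟩

theorem isConj_of_kg (g h : GL (Fin n) F) (hg : IsNilpotent ((g : Matrix (Fin n) (Fin n) F) - 1))
    (hh : IsNilpotent ((h : Matrix (Fin n) (Fin n) F) - 1)) (hk : ∀ j, kg g j = kg h j) :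
    IsConj g h := by
  obtain ⟨e, he⟩ := conj_of_kap _ (Fin n → F) (Fin n → F)
    (Matrix.toLinAlgEquiv' ((g : Matrix (Fin n) (Fin n) F) - 1) : Module.End F (Fin n → F))
    (Matrix.toLinAlgEquiv' ((h : Matrix (Fin n) (Fin n) F) - 1) : Module.End F (Fin n → F)) rfl
    (hg.map _) (hh.map _) hk
  let E : GL (Fin n) F :=
    ⟨LinearMap.toMatrix' (e : (Fin n → F) →ₗ[F] (Fin n → F)),
      LinearMap.toMatrix' (e.symm : (Fin n → F) →ₗ[F] (Fin n → F)),
      by rw [← LinearMap.toMatrix'_comp]; simp, by rw [← LinearMap.toMatrix'_comp]; simp⟩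
  have hE : (E : Matrix (Fin n) (Fin n) F) * (g : Matrix (Fin n) (Fin n) F) =
      (h : Matrix (Fin n) (Fin n) F) * (E : Matrix (Fin n) (Fin n) F) := by
    apply Matrix.toLin'.injective
    rw [Matrix.toLin'_mul, Matrix.toLin'_mul]
    show Matrix.toLin' (LinearMap.toMatrix' (e : (Fin n → F) →ₗ[F] (Fin n → F))) ∘ₗ _ =
      _ ∘ₗ Matrix.toLin' (LinearMap.toMatrix' (e : (Fin n → F) →ₗ[F] (Fin n → F)))
    rw [Matrix.toLin'_toMatrix']
    apply LinearMap.ext
    intro v
    have h1 := he v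
    simp only [map_sub, map_one, LinearMap.sub_apply, Module.End.one_apply] at h1
    have h2 : e ((Matrix.toLinAlgEquiv' (g : Matrix (Fin n) (Fin n) F) : Module.End F (Fin n → F)) v) =
        (Matrix.toLinAlgEquiv' (h : Matrix (Fin n) (Fin n) F) : Module.End F (Fin n → F)) (e v) :=
      sub_left_injective h1
    exact h2
  rw [isConj_iff]
  refine ⟨E, ?_⟩
  rw [mul_inv_eq_iff_eq_mul]
  exact Units.ext hE

theorem kg_of_isConj (g h : GL (Fin n) F) (hc : IsConj g h) (j : ℕ) : kg g j = kg h j := by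
  obtain ⟨c, hc⟩ := isConj_iff.1 hc
  rw [mul_inv_eq_iff_eq_mul] at hc
  have hc' : (c : Matrix (Fin n) (Fin n) F) * (g : Matrix (Fin n) (Fin n) F) =
      (h : Matrix (Fin n) (Fin n) F) * (c : Matrix (Fin n) (Fin n) F) := congrArg Units.val hc
  let e : (Fin n → F) ≃ₗ[F] (Fin n → F) :=
    LinearEquiv.ofLinearMap (Matrix.toLinAlgEquiv' (c : Matrix (Fin n) (Fin n) F))
      (Matrix.toLinAlgEquiv' ((c⁻¹ : GL (Fin n) F) : Matrix (Fin n) (Fin n) F))
      (by
        show (Matrix.toLinAlgEquiv' (c : Matrix (Fin n) (Fin n) F) : Module.End F (Fin n → F)) *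
          (Matrix.toLinAlgEquiv' ((c⁻¹ : GL (Fin n) F) : Matrix (Fin n) (Fin n) F)) = 1
        rw [← map_mul, ← Units.val_mul, mul_inv_cancel, Units.val_one, map_one])
      (by
        show (Matrix.toLinAlgEquiv' ((c⁻¹ : GL (Fin n) F) : Matrix (Fin n) (Fin n) F) :
          Module.End F (Fin n → F)) * (Matrix.toLinAlgEquiv' (c : Matrix (Fin n) (Fin n) F)) = 1
        rw [← map_mul, ← Units.val_mul, inv_mul_cancel, Units.val_one, map_one])
  apply kap_conj _ _ e
  intro x
  have h3 : (Matrix.toLinAlgEquiv' (c : Matrix (Fin n) (Fin n) F) : Module.End F (Fin n → F)) *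
    (Matrix.toLinAlgEquiv' ((g : Matrix (Fin n) (Fin n) F) - 1)) =
    (Matrix.toLinAlgEquiv' ((h : Matrix (Fin n) (Fin n) F) - 1) : Module.End F (Fin n → F)) *
      (Matrix.toLinAlgEquiv' (c : Matrix (Fin n) (Fin n) F)) := by
    rw [← map_mul, ← map_mul, mul_sub, sub_mul, hc', mul_one, one_mul]
  exact LinearMap.congr_fun h3 x

/-- the counting principle -/
theorem count (P : GL (Fin n) F → Prop) (Q : Nat.Partition n → Prop)
    (ha : ∀ g, P g → IsNilpotent ((g : Matrix (Fin n) (Fin n) F) - 1))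
    (hb : ∀ (g : GL (Fin n) F) (μ : Nat.Partition n),
      IsNilpotent ((g : Matrix (Fin n) (Fin n) F) - 1) → (∀ j, kg g j = fl μ.parts j) →
      (P g ↔ Q μ)) :
    Nat.card {C : ConjClasses (GL (Fin n) F) // ∃ g, P g ∧ ConjClasses.mk g = C} =
      Nat.card {μ : Nat.Partition n // Q μ} := by
  choose G hG1 hG2 using (exists_gl (F := F) (n := n))
  symm
  apply Nat.card_eq_of_bijective
    (fun μ : {μ : Nat.Partition n // Q μ} =>
      (⟨ConjClasses.mk (G μ.1), G μ.1, (hb _ μ.1 (hG1 μ.1) (hG2 μ.1)).2 μ.2, rfl⟩ :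
        {C : ConjClasses (GL (Fin n) F) // ∃ g, P g ∧ ConjClasses.mk g = C}))
  constructor
  · intro μ ν h
    have h1 : ConjClasses.mk (G μ.1) = ConjClasses.mk (G ν.1) := congrArg Subtype.val h
    rw [ConjClasses.mk_eq_mk_iff_isConj] at h1
    apply Subtype.ext
    apply Nat.Partition.ext
    apply fl_inj _ _ (fun a ha => μ.1.parts_pos ha) (fun a ha => ν.1.parts_pos ha)
    intro j
    rw [← hG2, ← hG2, kg_of_isConj _ _ h1]
  · rintro ⟨_, g, hg, rfl⟩
    obtain ⟨μ, hμ⟩ := exists_partition g (ha g hg)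
    refine ⟨⟨μ, (hb g μ (ha g hg) hμ).1 hg⟩, ?_⟩
    apply Subtype.ext
    show ConjClasses.mk (G μ) = ConjClasses.mk g
    rw [ConjClasses.mk_eq_mk_iff_isConj]
    apply isConj_of_kg _ _ (hG1 μ) (ha g hg)
    intro j
    rw [hG2, hμ]

theorem pow_char_iff (p : ℕ) [Fact p.Prime] [CharP F p] (A : Matrix (Fin n) (Fin n) F) (k : ℕ) :
    A ^ p ^ k = 1 ↔ (A - 1) ^ p ^ k = 0 := by
  cases isEmpty_or_nonempty (Fin n)
  · exact ⟨fun _ => Subsingleton.elim _ _, fun _ => Subsingleton.elim _ _⟩
  have : CharP (Matrix (Fin n) (Fin n) F) p := inferInstance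
  rw [sub_pow_char_pow_of_commute p _ (Commute.one_right A), one_pow, sub_eq_zero]

theorem gl_pow_char_iff (p : ℕ) [Fact p.Prime] [CharP F p] (g : GL (Fin n) F) (k : ℕ) :
    g ^ p ^ k = 1 ↔ ((g : Matrix (Fin n) (Fin n) F) - 1) ^ p ^ k = 0 := by
  rw [← pow_char_iff, ← Units.val_pow_eq_pow_val, Units.val_eq_one]

theorem fl_mono (l : Multiset ℕ) : Monotone (fl l) := by
  apply monotone_nat_of_le_succ
  intro j
  rw [fl_succ]
  omega

theorem fl_at_zero (l : Multiset ℕ) : fl l 0 = 0 := by simp [fl]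

/-- the partition into ones -/
def ones (n : ℕ) : Nat.Partition n :=
  ⟨Multiset.replicate n 1, fun {i} hi => by rw [Multiset.eq_of_mem_replicate hi]; exact one_pos,
    by simp⟩

theorem fl_one_iff (μ : Nat.Partition n) : fl μ.parts 1 = n ↔ μ = ones n := by
  have h1 : fl (ones n).parts 1 = n := by simp [fl, ones]
  constructor
  · intro h
    apply Nat.Partition.ext
    apply fl_inj _ _ (fun a ha => μ.parts_pos ha) (fun a ha => (ones n).parts_pos ha)
    intro j
    rcases Nat.eq_zero_or_pos j with rfl | hj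
    · rw [fl_at_zero, fl_at_zero]
    · have a1 := fl_mono μ.parts hj
      have a2 := fl_mono (ones n).parts hj
      have a3 := fl_le_sum μ.parts j
      have a4 := fl_le_sum (ones n).parts j
      rw [μ.parts_sum] at a3
      rw [(ones n).parts_sum] at a4
      have a5 : fl μ.parts 1 ≤ fl μ.parts j := a1
      have a6 : fl (ones n).parts 1 ≤ fl (ones n).parts j := a2
      omega
  · rintro rfl
    exact h1

end gl

end Cfsg.Agent.Lib.Helper19.Jordan
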