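import Mathlib

/-! Quasiprimitive groups with a primitive Jordan set are primitive. -/

set_option autoImplicit false

namespace Cfsg.Agent.Lib.Helper19

open MulAction
open scoped Pointwise

theorem isPretransitive_of_top {G Ω : Type*} [Group G] [MulAction G Ω]
    (h : IsPretransitive (⊤ : Subgroup G) Ω) : IsPretransitive G Ω :=
  ⟨fun x y => by
    obtain ⟨g, hg⟩ := h.exists_smul_eq x y
    exact ⟨g.1, hg⟩⟩

theorem isPreprimitive_of_qp {G Ω : Type*} [Group G] [MulAction G Ω] [Finite Ω]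
    (hqp : ∀ N : Subgroup G, N.Normal → N ≠ ⊥ → IsPretransitive ↥N Ω)
    (Γ : Set Ω) (hΓ1 : 1 < Γ.ncard)
    (hJp : IsPreprimitive ↥(fixingSubgroup G Γᶜ) ↥(SubMulAction.ofFixingSubgroup G Γᶜ)) :
    IsPreprimitive G Ω := by
  classical
  obtain ⟨γ₀, γ₁, h0, h1, h01⟩ := (Set.one_lt_ncard_iff (Set.toFinite Γ)).mp hΓ1
  have memX : ∀ x : Ω, x ∈ SubMulAction.ofFixingSubgroup G Γᶜ ↔ x ∈ Γ := by
    intro x
    rw [SubMulAction.mem_ofFixingSubgroup_iff, Set.notMem_compl_iff]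
  have hfix : ∀ h : fixingSubgroup G Γᶜ, ∀ x : Ω, x ∉ Γ → h.1 • x = x := by
    intro h x hx
    exact (mem_fixingSubgroup_iff G).mp h.2 x hx
  have hpres : ∀ h : fixingSubgroup G Γᶜ, ∀ x : Ω, x ∈ Γ → h.1 • x ∈ Γ := by
    intro h x hx
    have := (h • (⟨x, (memX x).mpr hx⟩ : SubMulAction.ofFixingSubgroup G Γᶜ)).2
    exact (memX _).mp this
  haveI := hJp.toIsPretransitive
  obtain ⟨h₀, hh₀⟩ := exists_smul_eq (fixingSubgroup G Γᶜ)
    (⟨γ₀, (memX γ₀).mpr h0⟩ : SubMulAction.ofFixingSubgroup G Γᶜ) ⟨γ₁, (memX γ₁).mpr h1⟩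
  have hh₀' : h₀.1 • γ₀ = γ₁ := congrArg Subtype.val hh₀
  have hh₀1 : h₀.1 ≠ 1 := by
    intro h
    rw [h, one_smul] at hh₀'
    exact h01 hh₀'
  have htop : (⊤ : Subgroup G) ≠ ⊥ := by
    intro h
    have : h₀.1 ∈ (⊥ : Subgroup G) := h ▸ Subgroup.mem_top _
    exact hh₀1 (Subgroup.mem_bot.mp this)
  have htr : IsPretransitive G Ω := isPretransitive_of_top (hqp ⊤ inferInstance htop)
  refine { toIsPretransitive := htr, isTrivialBlock_of_isBlock := ?_ }
  intro B hB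
  by_contra hBt
  unfold IsTrivialBlock at hBt
  push Not at hBt
  obtain ⟨hB1, hB2⟩ := hBt
  obtain ⟨b, hb⟩ := hB1.nonempty
  obtain ⟨g, hg⟩ := htr.exists_smul_eq b γ₀
  -- translate the block so that it contains γ₀
  set B' := g • B with hB'
  have hB'b : IsBlock G B' := hB.translate g
  have hγ₀ : γ₀ ∈ B' := hg ▸ Set.smul_mem_smul_set hb
  have hB'1 : B'.Nontrivial := by
    obtain ⟨x, hx, y, hy, hxy⟩ := hB1
    exact ⟨g • x, Set.smul_mem_smul_set hx, g • y, Set.smul_mem_smul_set hy,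
      fun h => hxy (smul_left_cancel g h)⟩
  have hB'2 : B' ≠ Set.univ := by
    intro h
    apply hB2
    have := congrArg (fun S => g⁻¹ • S) h
    simpa [hB', inv_smul_smul] using this
  -- the trace of the block on Γ
  have hC : IsBlock (fixingSubgroup G Γᶜ)
      ((SubMulAction.ofFixingSubgroup G Γᶜ).subtype ⁻¹' B') :=
    (hB'b.subgroup (H := fixingSubgroup G Γᶜ)).preimage (SubMulAction.ofFixingSubgroup G Γᶜ).subtype
  rcases hJp.isTrivialBlock_of_isBlock hC with hsub | huniv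
  · -- B' meets Γ only in γ₀
    obtain ⟨δ, hδ, hδγ⟩ := hB'1.exists_ne γ₀
    have hδΓ : δ ∉ Γ := by
      intro hδΓ
      have := @hsub ⟨δ, (memX δ).mpr hδΓ⟩ hδ ⟨γ₀, (memX γ₀).mpr h0⟩ hγ₀
      exact hδγ (congrArg Subtype.val this)
    have e1 : h₀.1 • B' = B' := hB'b.smul_eq_of_mem hδ (by rw [hfix h₀ δ hδΓ]; exact hδ)
    have e2 : γ₁ ∈ B' := by
      rw [← e1, ← hh₀']
      exact Set.smul_mem_smul_set hγ₀
    have := @hsub ⟨γ₁, (memX γ₁).mpr h1⟩ e2 ⟨γ₀, (memX γ₀).mpr h0⟩ hγ₀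
    exact h01 (congrArg Subtype.val this).symm
  · -- Γ ⊆ B'
    have hΓB : Γ ⊆ B' := by
      intro x hx
      have : (⟨x, (memX x).mpr hx⟩ : SubMulAction.ofFixingSubgroup G Γᶜ) ∈
          (SubMulAction.ofFixingSubgroup G Γᶜ).subtype ⁻¹' B' := huniv ▸ Set.mem_univ _
      exact this
    have hcore : h₀.1 ∈ (stabilizer G B').normalCore := by
      rw [Subgroup.normalCore, Subgroup.mem_mk]
      intro x
      show x * h₀.1 * x⁻¹ ∈ stabilizer G B'
      rw [mem_stabilizer_iff, mul_smul, mul_smul, smul_eq_iff_eq_inv_smul]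
      rcases hB'b.smul_eq_or_disjoint x⁻¹ with he | hd
      · rw [he]
        exact hB'b.smul_eq_of_mem hγ₀ (hΓB (hpres h₀ γ₀ h0))
      · ext z
        constructor
        · rintro ⟨w, hw, rfl⟩
          have hwΓ : w ∉ Γ := fun hwΓ => Set.disjoint_left.mp hd hw (hΓB hwΓ)
          show h₀.1 • w ∈ _
          rw [hfix h₀ w hwΓ]; exact hw
        · intro hz
          have hzΓ : z ∉ Γ := fun hzΓ => Set.disjoint_left.mp hd hz (hΓB hzΓ)
          exact ⟨z, hz, hfix h₀ z hzΓ⟩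
    have hne : (stabilizer G B').normalCore ≠ ⊥ := by
      intro h
      rw [h, Subgroup.mem_bot] at hcore
      exact hh₀1 hcore
    have htrN := hqp _ (Subgroup.normalCore_normal _) hne
    obtain ⟨z, hz⟩ := (Set.ne_univ_iff_exists_notMem B').mp hB'2
    obtain ⟨n, hn⟩ := htrN.exists_smul_eq γ₀ z
    have hnB : n.1 • B' = B' := mem_stabilizer_iff.mp (Subgroup.normalCore_le _ n.2)
    apply hz
    rw [← hnB, ← hn]
    exact Set.smul_mem_smul_set hγ₀

end Cfsg.Agent.Lib.Helper19
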