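import Mathlib

/-! A permutation `σ` of `ZMod p` with `(σ x - σ y)^m = (x - y)^m`, `2 m ≤ p - 1`, is affine
(Carlitz, McConnel). -/

set_option autoImplicit false

namespace Cfsg.Agent.Lib.Helper19

open Polynomial Finset

variable {p : ℕ} [Fact p.Prime]

theorem zmod_sum_pow (i j m : ℕ) (hm : m < p - 1) (hi : i ≤ m) (hj : j ≤ m) :
    ∑ y : ZMod p, y ^ (i + (p - 1 - j)) = if i = j then -1 else 0 := by
  have hcard : Fintype.card (ZMod p) = p := ZMod.card p
  rcases lt_trichotomy i j with h | h | h
  · rw [if_neg h.ne]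
    apply FiniteField.sum_pow_lt_card_sub_one
    rw [hcard]; omega
  · subst h
    rw [if_pos rfl]
    have h1 : i + (p - 1 - i) = p - 1 := by omega
    rw [h1]
    have h2 : ∀ y : ZMod p, y ^ (p - 1) = 1 - if y = 0 then 1 else 0 := by
      intro y
      by_cases hy : y = 0
      · rw [if_pos hy, hy, zero_pow (by omega)]; ring
      · rw [if_neg hy, ZMod.pow_card_sub_one_eq_one hy]; ring
    simp_rw [h2]
    rw [Finset.sum_sub_distrib]
    simp [hcard]
  · rw [if_neg h.ne']
    have h2 : ∀ y : ZMod p, y ^ (i + (p - 1 - j)) = y ^ (i - j) := by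
      intro y
      have h1 : i + (p - 1 - j) = (i - j) + (p - 1) := by omega
      rw [h1, pow_add]
      by_cases hy : y = 0
      · rw [hy, zero_pow (by omega : i - j ≠ 0), zero_mul]
      · rw [ZMod.pow_card_sub_one_eq_one hy, mul_one]
    simp_rw [h2]
    apply FiniteField.sum_pow_lt_card_sub_one
    rw [hcard]; omega

theorem choose_ne_zero_zmod (m k : ℕ) (hm : m < p) (hk : k ≤ m) : ((m.choose k : ℕ) : ZMod p) ≠ 0 := by
  intro h
  rw [ZMod.natCast_eq_zero_iff] at h
  have h1 : m.choose k ∣ m.factorial := by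
    rw [← Nat.choose_mul_factorial_mul_factorial hk, mul_assoc]
    exact dvd_mul_right _ _
  have h2 := (Nat.Prime.dvd_factorial (Fact.out : p.Prime)).mp (h.trans h1)
  omega

theorem exists_poly_pow (σ : Equiv.Perm (ZMod p)) (m : ℕ) (hm : m < p - 1)
    (h : ∀ x y, (σ x - σ y) ^ m = (x - y) ^ m) (k : ℕ) (hk : k ≤ m) :
    ∃ P : (ZMod p)[X], P.natDegree ≤ m ∧ ∀ x, P.eval x = (σ x) ^ k := by
  set w : ZMod p → ZMod p := fun y => (σ y) ^ (p - 1 - (m - k)) with hw
  set c : ℕ → ZMod p := fun i => ∑ y, (-y) ^ (m - i) * w y with hc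
  set u : ZMod p := (-1) ^ (m - k) * (m.choose k : ℕ) * (-1) with hu
  have hu0 : u ≠ 0 := by
    rw [hu]
    refine mul_ne_zero (mul_ne_zero (pow_ne_zero _ (by simp)) (choose_ne_zero_zmod m k (by omega) hk)) (by simp)
  have key : ∀ x, (σ x) ^ k * u = ∑ i ∈ range (m + 1), x ^ i * ((m.choose i : ℕ) * c i) := by
    intro x
    have h1 : ∑ y, (σ x - σ y) ^ m * w y = ∑ y, (x - y) ^ m * w y :=
      Finset.sum_congr rfl (fun y _ => by rw [h x y])
    have hL : ∑ y, (σ x - σ y) ^ m * w y = (σ x) ^ k * u := by
      have h2 : ∀ y, (σ x - σ y) ^ m * w y =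
          ∑ i ∈ range (m + 1), (σ x) ^ i * ((-1) ^ (m - i) * (m.choose i : ℕ)) *
            (σ y) ^ ((m - i) + (p - 1 - (m - k))) := by
        intro y
        rw [sub_eq_add_neg, add_pow, Finset.sum_mul]
        apply Finset.sum_congr rfl
        intro i _
        rw [hw, pow_add, neg_pow (σ y)]
        ring
      simp_rw [h2]
      rw [Finset.sum_comm]
      have h3 : ∀ i ∈ range (m + 1), ∑ y, (σ x) ^ i * ((-1) ^ (m - i) * (m.choose i : ℕ)) *
            (σ y) ^ ((m - i) + (p - 1 - (m - k))) =
          (σ x) ^ i * ((-1) ^ (m - i) * (m.choose i : ℕ)) * (if i = k then -1 else 0) := by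
        intro i hi
        rw [← Finset.mul_sum, Equiv.sum_comp σ (fun z => z ^ ((m - i) + (p - 1 - (m - k)))),
          zmod_sum_pow (m - i) (m - k) m hm (by omega) (by omega)]
        have hi' : i ≤ m := by
          rw [Finset.mem_range] at hi; omega
        congr 1
        by_cases hik : i = k
        · rw [if_pos hik, if_pos (by rw [hik])]
        · rw [if_neg hik, if_neg (by omega)]
      rw [Finset.sum_congr rfl h3]
      rw [Finset.sum_eq_single k]
      · rw [if_pos rfl, hu]; ring
      · intro i _ hik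
        rw [if_neg hik, mul_zero]
      · intro hk'
        exfalso
        apply hk'
        rw [Finset.mem_range]; omega
    have hR : ∑ y, (x - y) ^ m * w y = ∑ i ∈ range (m + 1), x ^ i * ((m.choose i : ℕ) * c i) := by
      have h2 : ∀ y, (x - y) ^ m * w y =
          ∑ i ∈ range (m + 1), x ^ i * ((m.choose i : ℕ) * ((-y) ^ (m - i) * w y)) := by
        intro y
        rw [sub_eq_add_neg, add_pow, Finset.sum_mul]
        apply Finset.sum_congr rfl
        intro i _
        ring
      simp_rw [h2]
      rw [Finset.sum_comm]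
      apply Finset.sum_congr rfl
      intro i _
      rw [hc, Finset.mul_sum, Finset.mul_sum]
    rw [← hL, h1, hR]
  refine ⟨C u⁻¹ * ∑ i ∈ range (m + 1), C ((m.choose i : ℕ) * c i) * X ^ i, ?_, ?_⟩
  · refine (natDegree_C_mul_le _ _).trans ?_
    apply natDegree_sum_le_of_forall_le
    intro i hi
    refine (natDegree_C_mul_X_pow_le _ _).trans ?_
    rw [Finset.mem_range] at hi; omega
  · intro x
    rw [eval_mul, eval_C, eval_finsetSum]
    have : ∑ i ∈ range (m + 1), eval x (C ((m.choose i : ℕ) * c i) * X ^ i) = (σ x) ^ k * u := by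
      rw [key x]
      apply Finset.sum_congr rfl
      intro i _
      rw [eval_mul, eval_C, eval_pow, eval_X]
      ring
    rw [this]
    field_simp

theorem affine_of_pow_eq (σ : Equiv.Perm (ZMod p)) (m : ℕ) (hm1 : 1 ≤ m) (hm : 2 * m ≤ p - 1)
    (h : ∀ x y, (σ x - σ y) ^ m = (x - y) ^ m) : ∃ a b : ZMod p, ∀ x, σ x = a * x + b := by
  have hm' : m < p - 1 := by omega
  obtain ⟨P, hPd, hP⟩ := exists_poly_pow σ m hm' h 1 hm1
  simp only [pow_one] at hP
  have hcard : (Finset.univ : Finset (ZMod p)).card = p := by rw [Finset.card_univ, ZMod.card p]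
  have he : P.natDegree ≤ 1 := by
    by_contra hcon
    push Not at hcon
    set e := P.natDegree with he
    set k := m / e + 1 with hk
    have h1 : m < k * e := by
      rw [hk]
      have := Nat.lt_div_mul_add (a := m) (b := e) (by omega)
      nlinarith
    have h2 : k * e ≤ m + e := by
      rw [hk]
      have := Nat.div_mul_le_self m e
      nlinarith
    have h3 : k ≤ m := by
      rw [hk]
      have : m / e ≤ m / 2 := Nat.div_le_div_left (by omega) (by omega)
      omega
    obtain ⟨Q, hQd, hQ⟩ := exists_poly_pow σ m hm' h k h3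
    have h4 : P ^ k = Q := by
      apply Polynomial.eq_of_degree_sub_lt_of_eval_finset_eq Finset.univ
      · rw [hcard]
        refine lt_of_le_of_lt (degree_sub_le _ _) ?_
        rw [max_lt_iff]
        constructor
        · refine lt_of_le_of_lt degree_le_natDegree ?_
          rw [natDegree_pow]
          exact_mod_cast (by omega : k * e < p)
        · refine lt_of_le_of_lt degree_le_natDegree ?_
          exact_mod_cast (by omega : Q.natDegree < p)
      · intro x _
        rw [eval_pow, hP, hQ]
    have h5 : (P ^ k).natDegree = k * e := natDegree_pow _ _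
    rw [h4] at h5
    omega
  rw [Polynomial.eq_X_add_C_of_natDegree_le_one he] at hP
  refine ⟨P.coeff 1, P.coeff 0, fun x => ?_⟩
  rw [← hP x]
  simp

end Cfsg.Agent.Lib.Helper19
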