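import Mathlib
import Cfsg.Agent.Lib.Helper19.PrimAb
import Cfsg.Agent.H4.MinNormal

/-! Lemmas for the socle of a primitive group. -/

set_option autoImplicit false

namespace Cfsg.Agent.Lib.Helper19

open MulAction

/-- `T^a × T^b ≃* T^(a+b)` -/
def prodPowEquiv (T : Type*) [Group T] (a b : ℕ) :
    ((Fin a → T) × (Fin b → T)) ≃* (Fin (a + b) → T) where
  toFun p := Fin.append p.1 p.2
  invFun f := (fun i => f (Fin.castAdd b i), fun j => f (Fin.natAdd a j))
  left_inv := by intro p; ext <;> simp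
  right_inv := by intro f; ext i; refine Fin.addCases ?_ ?_ i <;> simp
  map_mul' := by intro p q; ext i; refine Fin.addCases ?_ ?_ i <;> simp

section
variable {H Θ : Type*} [Group H] [MulAction H Θ] [FaithfulSMul H Θ]

/-- a transitive subgroup of the centralizer of a transitive subgroup is the whole centralizer -/
theorem centralizer_le_of_transitive [Nonempty Θ] (V A : Subgroup H) [IsPretransitive V Θ]
    [IsPretransitive A Θ] (hA : A ≤ Subgroup.centralizer (V : Set H)) :
    Subgroup.centralizer (V : Set H) ≤ A := by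
  intro c hc
  obtain ⟨θ⟩ := (inferInstance : Nonempty Θ)
  obtain ⟨a, ha⟩ := exists_smul_eq A θ (c • θ)
  have h1 : (a : H)⁻¹ * c ∈ Subgroup.centralizer (V : Set H) :=
    Subgroup.mul_mem _ (Subgroup.inv_mem _ (hA a.2)) hc
  have h2 : (a : H)⁻¹ * c = 1 := by
    apply eq_one_of_commute_transitive V _ _ θ
    · rw [mul_smul, ← ha]
      change (a : H)⁻¹ • (a : H) • θ = θ
      rw [inv_smul_smul]
    · intro b hb
      exact ((Subgroup.mem_centralizer_iff.mp h1) b hb).symm
  have h3 : c = a := by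
    have := congrArg (fun x => (a : H) * x) h2
    simpa using this
  rw [h3]; exact a.2

/-- two commuting transitive subgroups are isomorphic -/
theorem equiv_of_commuting_transitive [Nonempty Θ] (V W : Subgroup H) [IsPretransitive V Θ]
    [IsPretransitive W Θ] (hc : ∀ v ∈ V, ∀ w ∈ W, v * w = w * v) : Nonempty (V ≃* W) := by
  obtain ⟨θ⟩ := (inferInstance : Nonempty Θ)
  have hW : ∀ w ∈ W, w • θ = θ → w = 1 := fun w hw hfix =>
    eq_one_of_commute_transitive V w (fun v hv => (hc v hv w hw).symm) θ hfix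
  have hV : ∀ v ∈ V, v • θ = θ → v = 1 := fun v hv hfix =>
    eq_one_of_commute_transitive W v (fun w hw => hc v hv w hw) θ hfix
  have hex : ∀ v : V, ∃ w : W, (w : H) • θ = (v : H)⁻¹ • θ := fun v =>
    exists_smul_eq W θ ((v : H)⁻¹ • θ)
  choose f hf using hex
  have huniq : ∀ w w' : W, (w : H) • θ = (w' : H) • θ → w = w' := by
    intro w w' h
    have h1 : (w' : H)⁻¹ * w = 1 := by
      apply hW _ (W.mul_mem (W.inv_mem w'.2) w.2)
      rw [mul_smul, h, inv_smul_smul]
    apply Subtype.ext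
    have := congrArg (fun x => (w' : H) * x) h1
    simpa using this
  have hmul : ∀ a b : V, f (a * b) = f a * f b := by
    intro a b
    apply huniq
    rw [hf]
    change ((a : H) * (b : H))⁻¹ • θ = ((f a : H) * (f b : H)) • θ
    rw [mul_smul, hf, ← mul_smul, ← hc _ (V.inv_mem b.2) _ (f a).2, mul_smul, hf, ← mul_smul, mul_inv_rev]
  refine ⟨MulEquiv.ofBijective (MonoidHom.mk' f hmul) ⟨?_, ?_⟩⟩
  · rw [injective_iff_map_eq_one]
    intro a ha
    have h1 : f a = 1 := ha
    have h2 := hf a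
    rw [h1] at h2
    have h3 : (a : H)⁻¹ = 1 := hV _ (V.inv_mem a.2) (by rw [← h2]; exact one_smul _ _)
    apply Subtype.ext
    simpa using h3
  · intro w
    obtain ⟨v, hv⟩ := exists_smul_eq V θ ((w : H)⁻¹ • θ)
    refine ⟨v, ?_⟩
    apply huniq
    change (f v : H) • θ = (w : H) • θ
    rw [hf]
    have hv' : (v : H) • θ = (w : H)⁻¹ • θ := hv
    have h1 : (w : H) • (v : H) • θ = θ := by rw [hv', smul_inv_smul]
    rw [← mul_smul, ← hc _ v.2 _ w.2, mul_smul] at h1
    have h2 := congrArg (fun x => (v : H)⁻¹ • x) h1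
    simp only [inv_smul_smul] at h2
    exact h2.symm

end

/-- distinct minimal normal subgroups meet trivially -/
theorem minimal_normal_inf {G : Type*} [Group G] (V W : Subgroup G) [V.Normal] [W.Normal]
    (hV0 : V ≠ ⊥)
    (hV : ∀ M : Subgroup G, M.Normal → M ≤ V → M = ⊥ ∨ M = V)
    (hW : ∀ M : Subgroup G, M.Normal → M ≤ W → M = ⊥ ∨ M = W) (hne : W ≠ V) : V ⊓ W = ⊥ := by
  rcases hV (V ⊓ W) inferInstance inf_le_left with h | h
  · exact h
  · exfalso
    have h1 : V ≤ W := by rw [← h]; exact inf_le_right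
    rcases hW V inferInstance h1 with h3 | h3
    · exact hV0 h3
    · exact hne h3.symm

/-- an abelian minimal normal subgroup has prime exponent -/
theorem exists_prime_exponent {G : Type*} [Group G] [Finite G] (V : Subgroup G) [V.Normal]
    (hV0 : V ≠ ⊥) (hV : ∀ M : Subgroup G, M.Normal → M ≤ V → M = ⊥ ∨ M = V)
    (hc : ∀ x ∈ V, ∀ y ∈ V, x * y = y * x) : ∃ p : ℕ, p.Prime ∧ ∀ x ∈ V, x ^ p = 1 := by
  have hcard : Nat.card V ≠ 1 := by
    intro h
    exact hV0 ((Subgroup.card_eq_one).mp h)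
  have hp := Nat.minFac_prime hcard
  haveI := Fact.mk hp
  refine ⟨(Nat.card V).minFac, hp, ?_⟩
  obtain ⟨x, hx⟩ := exists_prime_orderOf_dvd_card' (G := V) (Nat.card V).minFac (Nat.minFac_dvd _)
  let M : Subgroup G :=
    { carrier := {y | y ∈ V ∧ y ^ (Nat.card V).minFac = 1}
      mul_mem' := by
        rintro a b ⟨ha, ha'⟩ ⟨hb, hb'⟩
        exact ⟨V.mul_mem ha hb, by rw [(show Commute a b from hc a ha b hb).mul_pow, ha', hb', one_mul]⟩
      one_mem' := ⟨V.one_mem, one_pow _⟩
      inv_mem' := by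
        rintro a ⟨ha, ha'⟩
        exact ⟨V.inv_mem ha, by rw [inv_pow, ha', inv_one]⟩ }
  have hMn : M.Normal := by
    constructor
    rintro a ⟨ha, ha'⟩ g
    exact ⟨(inferInstance : V.Normal).conj_mem a ha g, by rw [conj_pow, ha', mul_one, mul_inv_cancel]⟩
  have hMV : M ≤ V := fun y hy => hy.1
  rcases hV M hMn hMV with h | h
  · exfalso
    have hxM : (x : G) ∈ M := ⟨x.2, by
      have := pow_orderOf_eq_one x
      rw [hx] at this
      exact congrArg Subtype.val this⟩
    rw [h, Subgroup.mem_bot] at hxM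
    have hx1 : x = 1 := Subtype.ext hxM
    rw [hx1, orderOf_one] at hx
    exact hp.one_lt.ne hx
  · intro y hy
    rw [← h] at hy
    exact hy.2

end Cfsg.Agent.Lib.Helper19
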