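import Mathlib
import Cfsg.Prelude.Def_Sz

/-! Elements of the Suzuki group `Sz(q) ≤ Sp₄(q)` with a nonzero fixed vector are 2-elements. -/

set_option autoImplicit false

namespace Cfsg.Agent.Lib.Helper19

open Matrix Cfsg.Lie

variable {F : Type*} [Field F]

/-- the antidiagonal Gram matrix -/
def J4 (F : Type*) [Field F] : Matrix (Fin 4) (Fin 4) F := !![0, 0, 0, 1; 0, 0, 1, 0; 0, 1, 0, 0; 1, 0, 0, 0]

/-- column relations of a symplectic matrix -/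
def IsSp (A : Matrix (Fin 4) (Fin 4) F) : Prop :=
  ∀ i j, A 0 i * A 3 j + A 1 i * A 2 j + A 2 i * A 1 j + A 3 i * A 0 j = J4 F i j

theorem isSp_of_mem {g : GL (Fin 4) F} (hg : g ∈ Sp4 F) : IsSp (g : Matrix (Fin 4) (Fin 4) F) := by
  intro i j
  have h := hg (Pi.single i 1) (Pi.single j 1)
  simp only [altForm4, Units.coeHom_apply, Matrix.mulVec_single_one, Matrix.col_apply] at h
  rw [h]
  fin_cases i <;> fin_cases j <;> simp [J4]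

/-- `J Aᵀ J` -/
def dual4 (A : Matrix (Fin 4) (Fin 4) F) : Matrix (Fin 4) (Fin 4) F :=
  Matrix.of fun i j => A (Fin.rev j) (Fin.rev i)

theorem dual4_apply (A : Matrix (Fin 4) (Fin 4) F) (i j : Fin 4) : dual4 A i j = A (Fin.rev j) (Fin.rev i) := rfl

theorem dual4_mul_self {A : Matrix (Fin 4) (Fin 4) F} (hA : IsSp A) : dual4 A * A = 1 := by
  ext i j
  rw [Matrix.mul_apply, Fin.sum_univ_four]
  simp only [dual4_apply]
  have h := hA (Fin.rev i) j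
  fin_cases i <;> fin_cases j <;> simp [J4, Fin.rev, Matrix.one_apply] at h ⊢ <;> linear_combination h

theorem self_mul_dual4 {A : Matrix (Fin 4) (Fin 4) F} (hA : IsSp A) : A * dual4 A = 1 :=
  mul_eq_one_comm.mp (dual4_mul_self hA)

theorem isSp_row {A : Matrix (Fin 4) (Fin 4) F} (hA : IsSp A) (k l : Fin 4) :
    A k 0 * A l 3 + A k 1 * A l 2 + A k 2 * A l 1 + A k 3 * A l 0 = J4 F k l := by
  have h := congrFun (congrFun (self_mul_dual4 hA) k) (Fin.rev l)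
  rw [Matrix.mul_apply, Fin.sum_univ_four] at h
  simp only [dual4_apply] at h
  fin_cases k <;> fin_cases l <;> simp [J4, Fin.rev, Matrix.one_apply] at h ⊢ <;> linear_combination h

theorem star4_apply (g : Matrix (Fin 4) (Fin 4) F) (p r : Fin 4) :
    star4 g p r = g (pairOf p).1 (pairOf r).1 * g (pairOf p).2 (pairOf r).2 -
      g (pairOf p).2 (pairOf r).1 * g (pairOf p).1 (pairOf r).2 := rfl

theorem pairOf_0 : pairOf 0 = (0, 1) := rfl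
theorem pairOf_1 : pairOf 1 = (0, 2) := rfl
theorem pairOf_2 : pairOf 2 = (1, 3) := rfl
theorem pairOf_3 : pairOf 3 = (2, 3) := rfl

theorem cb_aux [CharP F 2] (a0 a1 a2 a3 c0 c1 c2 c3 b0 b1 b2 b3 d0 d1 d2 d3 : F)
    (hA : a0 * c3 + a1 * c2 + a2 * c1 + a3 * c0 = 0)
    (hB : b0 * d3 + b1 * d2 + b2 * d1 + b3 * d0 = 0) :
    (a0 * b0 + a1 * b1 + a2 * b2 + a3 * b3) * (c0 * d0 + c1 * d1 + c2 * d2 + c3 * d3) -
      (c0 * b0 + c1 * b1 + c2 * b2 + c3 * b3) * (a0 * d0 + a1 * d1 + a2 * d2 + a3 * d3) =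
    (a0 * c1 - c0 * a1) * (b0 * d1 - b1 * d0) + (a0 * c2 - c0 * a2) * (b0 * d2 - b2 * d0) +
      (a1 * c3 - c1 * a3) * (b1 * d3 - b3 * d1) + (a2 * c3 - c2 * a3) * (b2 * d3 - b3 * d2) := by
  have h2 : (2 : F) = 0 := CharTwo.two_eq_zero
  linear_combination (b1 * d2 - b2 * d1) * hA - ((a0 * c3 - c0 * a3) + 2 * (c0 * a3 + c1 * a2)) * hB +
    ((a0 * c3 - c0 * a3) * (b0 * d3 - b3 * d0) + (a0 * c3 - c0 * a3) * (b3 * d0 + b2 * d1) +
      (c0 * a3 + c1 * a2) * (b0 * d3 - b3 * d0) + 2 * (c0 * a3 + c1 * a2) * (b3 * d0 + b2 * d1)) * h2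

theorem J4_pairOf (p : Fin 4) : J4 F (pairOf p).1 (pairOf p).2 = 0 := by
  fin_cases p <;> simp [pairOf, J4]

theorem star4_mul [CharP F 2] {A B : Matrix (Fin 4) (Fin 4) F} (hA : IsSp A) (hB : IsSp B) :
    star4 (A * B) = star4 A * star4 B := by
  ext p r
  have h1 := isSp_row hA (pairOf p).1 (pairOf p).2
  rw [J4_pairOf] at h1
  have h2 := hB (pairOf r).1 (pairOf r).2
  rw [J4_pairOf] at h2
  have h3 := cb_aux _ _ _ _ _ _ _ _ _ _ _ _ _ _ _ _ h1 h2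
  rw [Matrix.mul_apply, Fin.sum_univ_four]
  simp only [star4_apply, Matrix.mul_apply, Fin.sum_univ_four]
  exact h3

theorem star4_one : star4 (1 : Matrix (Fin 4) (Fin 4) F) = 1 := by
  ext p r
  rw [star4_apply]
  fin_cases p <;> fin_cases r <;> simp [pairOf_0, pairOf_1, pairOf_2, pairOf_3, Matrix.one_apply]

/-- the Pfaffian of `J A + (J A)ᵀ` -/
def pf4 (A : Matrix (Fin 4) (Fin 4) F) : F :=
  (A 3 1 + A 2 0) * (A 1 3 + A 0 2) + (A 3 2 + A 1 0) * (A 2 3 + A 0 1) + (A 3 3 + A 0 0) * (A 2 2 + A 1 1)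

/-- the trace -/
def tr4 (A : Matrix (Fin 4) (Fin 4) F) : F := A 0 0 + A 1 1 + A 2 2 + A 3 3

theorem pf_ch [CharP F 2] (A : Matrix (Fin 4) (Fin 4) F) :
    (A + dual4 A) * (A + dual4 A) + tr4 A • (A + dual4 A) + pf4 A • (1 : Matrix (Fin 4) (Fin 4) F) = 0 := by
  have h2 : (2 : F) = 0 := CharTwo.two_eq_zero
  ext i j
  fin_cases i <;> fin_cases j <;>
    simp [Matrix.mul_apply, Fin.sum_univ_four, dual4_apply, Fin.rev, tr4, pf4, Matrix.one_apply]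
  · linear_combination (A 0 0 * A 0 0 + A 0 0 * A 1 1 + A 0 0 * A 2 2 + 2 * A 0 0 * A 3 3 + A 0 1 * A 1 0 + A 0 1 * A 3 2 + A 0 2 * A 2 0 + A 0 2 * A 3 1 + 2 * A 0 3 * A 3 0 + A 1 0 * A 2 3 + A 1 1 * A 3 3 + A 1 3 * A 2 0 + A 1 3 * A 3 1 + A 2 2 * A 3 3 + A 2 3 * A 3 2 + A 3 3 * A 3 3) * h2
  · linear_combination (A 0 0 * A 0 1 + A 0 0 * A 2 3 + A 0 1 * A 1 1 + A 0 1 * A 2 2 + A 0 1 * A 3 3 + A 0 2 * A 2 1 + A 0 3 * A 2 0 + A 0 3 * A 3 1 + A 1 1 * A 2 3 + A 1 3 * A 2 1 + A 2 2 * A 2 3 + A 2 3 * A 3 3) * h2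
  · linear_combination (A 0 0 * A 0 2 + A 0 0 * A 1 3 + A 0 1 * A 1 2 + A 0 2 * A 1 1 + A 0 2 * A 2 2 + A 0 2 * A 3 3 + A 0 3 * A 1 0 + A 0 3 * A 3 2 + A 1 1 * A 1 3 + A 1 2 * A 2 3 + A 1 3 * A 2 2 + A 1 3 * A 3 3) * h2
  · linear_combination (3 * A 0 0 * A 0 3 + A 0 1 * A 0 2 + A 0 1 * A 1 3 + A 0 2 * A 2 3 + A 0 3 * A 1 1 + A 0 3 * A 2 2 + 3 * A 0 3 * A 3 3 + A 1 3 * A 2 3) * h2
  · linear_combination (A 0 0 * A 1 0 + A 0 0 * A 3 2 + A 0 2 * A 3 0 + A 1 0 * A 1 1 + A 1 0 * A 2 2 + A 1 0 * A 3 3 + A 1 1 * A 3 2 + A 1 2 * A 2 0 + A 1 2 * A 3 1 + A 1 3 * A 3 0 + A 2 2 * A 3 2 + A 3 2 * A 3 3) * h2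
  · linear_combination (A 0 0 * A 1 1 + A 0 0 * A 2 2 + A 0 1 * A 1 0 + A 0 1 * A 3 2 + A 0 2 * A 2 0 + A 0 2 * A 3 1 + A 1 0 * A 2 3 + A 1 1 * A 1 1 + 2 * A 1 1 * A 2 2 + A 1 1 * A 3 3 + 2 * A 1 2 * A 2 1 + A 1 3 * A 2 0 + A 1 3 * A 3 1 + A 2 2 * A 2 2 + A 2 2 * A 3 3 + A 2 3 * A 3 2) * h2
  · linear_combination (A 0 0 * A 1 2 + A 0 2 * A 1 0 + A 0 2 * A 3 2 + A 1 0 * A 1 3 + 3 * A 1 1 * A 1 2 + 3 * A 1 2 * A 2 2 + A 1 2 * A 3 3 + A 1 3 * A 3 2) * h2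
  · linear_combination (A 0 0 * A 0 2 + A 0 0 * A 1 3 + A 0 1 * A 1 2 + A 0 2 * A 1 1 + A 0 2 * A 2 2 + A 0 2 * A 3 3 + A 0 3 * A 1 0 + A 0 3 * A 3 2 + A 1 1 * A 1 3 + A 1 2 * A 2 3 + A 1 3 * A 2 2 + A 1 3 * A 3 3) * h2
  · linear_combination (A 0 0 * A 2 0 + A 0 0 * A 3 1 + A 0 1 * A 3 0 + A 1 0 * A 2 1 + A 1 1 * A 2 0 + A 1 1 * A 3 1 + A 2 0 * A 2 2 + A 2 0 * A 3 3 + A 2 1 * A 3 2 + A 2 2 * A 3 1 + A 2 3 * A 3 0 + A 3 1 * A 3 3) * h2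
  · linear_combination (A 0 0 * A 2 1 + A 0 1 * A 2 0 + A 0 1 * A 3 1 + 3 * A 1 1 * A 2 1 + A 2 0 * A 2 3 + 3 * A 2 1 * A 2 2 + A 2 1 * A 3 3 + A 2 3 * A 3 1) * h2
  · linear_combination (A 0 0 * A 1 1 + A 0 0 * A 2 2 + A 0 1 * A 1 0 + A 0 1 * A 3 2 + A 0 2 * A 2 0 + A 0 2 * A 3 1 + A 1 0 * A 2 3 + A 1 1 * A 1 1 + 2 * A 1 1 * A 2 2 + A 1 1 * A 3 3 + 2 * A 1 2 * A 2 1 + A 1 3 * A 2 0 + A 1 3 * A 3 1 + A 2 2 * A 2 2 + A 2 2 * A 3 3 + A 2 3 * A 3 2) * h2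
  · linear_combination (A 0 0 * A 0 1 + A 0 0 * A 2 3 + A 0 1 * A 1 1 + A 0 1 * A 2 2 + A 0 1 * A 3 3 + A 0 2 * A 2 1 + A 0 3 * A 2 0 + A 0 3 * A 3 1 + A 1 1 * A 2 3 + A 1 3 * A 2 1 + A 2 2 * A 2 3 + A 2 3 * A 3 3) * h2
  · linear_combination (3 * A 0 0 * A 3 0 + A 1 0 * A 2 0 + A 1 0 * A 3 1 + A 1 1 * A 3 0 + A 2 0 * A 3 2 + A 2 2 * A 3 0 + 3 * A 3 0 * A 3 3 + A 3 1 * A 3 2) * h2
  · linear_combination (A 0 0 * A 2 0 + A 0 0 * A 3 1 + A 0 1 * A 3 0 + A 1 0 * A 2 1 + A 1 1 * A 2 0 + A 1 1 * A 3 1 + A 2 0 * A 2 2 + A 2 0 * A 3 3 + A 2 1 * A 3 2 + A 2 2 * A 3 1 + A 2 3 * A 3 0 + A 3 1 * A 3 3) * h2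
  · linear_combination (A 0 0 * A 1 0 + A 0 0 * A 3 2 + A 0 2 * A 3 0 + A 1 0 * A 1 1 + A 1 0 * A 2 2 + A 1 0 * A 3 3 + A 1 1 * A 3 2 + A 1 2 * A 2 0 + A 1 2 * A 3 1 + A 1 3 * A 3 0 + A 2 2 * A 3 2 + A 3 2 * A 3 3) * h2
  · linear_combination (A 0 0 * A 0 0 + A 0 0 * A 1 1 + A 0 0 * A 2 2 + 2 * A 0 0 * A 3 3 + A 0 1 * A 1 0 + A 0 1 * A 3 2 + A 0 2 * A 2 0 + A 0 2 * A 3 1 + 2 * A 0 3 * A 3 0 + A 1 0 * A 2 3 + A 1 1 * A 3 3 + A 1 3 * A 2 0 + A 1 3 * A 3 1 + A 2 2 * A 3 3 + A 2 3 * A 3 2 + A 3 3 * A 3 3) * h2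

theorem pf4_eq_tr4_star4 [CharP F 2] {A : Matrix (Fin 4) (Fin 4) F} (hA : IsSp A) :
    pf4 A = tr4 (star4 A) := by
  have h2 : (2 : F) = 0 := CharTwo.two_eq_zero
  have r1 := hA 1 2
  have r2 := isSp_row hA 1 2
  simp only [J4, Matrix.of_apply, Matrix.cons_val', Matrix.cons_val_one, Matrix.cons_val_zero,
    Matrix.cons_val] at r1 r2
  simp only [pf4, tr4, star4_apply, pairOf_0, pairOf_1, pairOf_2, pairOf_3]
  linear_combination r1 + r2 + (A 3 1 * A 1 3 + A 2 0 * A 0 2 + A 3 2 * A 2 3 + A 1 0 * A 0 1 -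
    A 1 1 * A 2 2 - A 2 1 * A 1 2 + 1) * h2

theorem tr4_map_pow [CharP F 2] (A : Matrix (Fin 4) (Fin 4) F) (k : ℕ) :
    tr4 (A.map (fun x => x ^ 2 ^ k)) = tr4 A ^ 2 ^ k := by
  haveI : Fact (Nat.Prime 2) := ⟨Nat.prime_two⟩
  simp only [tr4, Matrix.map_apply, add_pow_char_pow]

theorem pow_four_eq_one_of_fixed [CharP F 2] {A : Matrix (Fin 4) (Fin 4) F} (k : ℕ) (hA : IsSp A)
    (hs : star4 A = A.map (fun x => x ^ 2 ^ k)) (v : Fin 4 → F) (hv : v ≠ 0) (hAv : A *ᵥ v = v) :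
    A ^ 4 = 1 := by
  have h2 : (2 : F) = 0 := CharTwo.two_eq_zero
  have e1 := dual4_mul_self hA
  have e2 := self_mul_dual4 hA
  have hdv : dual4 A *ᵥ v = v := by
    conv_lhs => rw [← hAv]
    rw [Matrix.mulVec_mulVec, e1, Matrix.one_mulVec]
  have hhv : (A + dual4 A) *ᵥ v = 0 := by
    rw [Matrix.add_mulVec, hAv, hdv]
    ext i
    simp only [Pi.add_apply, Pi.zero_apply]
    linear_combination (v i) * h2
  have hch := pf_ch A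
  have h3 := congrArg (fun M => M *ᵥ v) hch
  simp only [Matrix.add_mulVec, Matrix.smul_mulVec, ← Matrix.mulVec_mulVec, hhv, Matrix.mulVec_zero,
    smul_zero, Matrix.one_mulVec, zero_add, Matrix.zero_mulVec] at h3
  have hpf : pf4 A = 0 := by
    by_contra hne
    apply hv
    have := congrArg (fun w => (pf4 A)⁻¹ • w) h3
    simpa [smul_smul, inv_mul_cancel₀ hne] using this
  have ht : tr4 A = 0 := by
    rw [pf4_eq_tr4_star4 hA, hs, tr4_map_pow] at hpf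
    exact pow_eq_zero_iff (pow_pos (by norm_num) k).ne' |>.mp hpf
  rw [hpf, ht, zero_smul, zero_smul, add_zero, add_zero] at hch
  have h4 : A * A + dual4 A * dual4 A = 0 := by
    have : (A + dual4 A) * (A + dual4 A) = A * A + dual4 A * dual4 A + (2 : F) • (1 : Matrix (Fin 4) (Fin 4) F) := by
      rw [add_mul, mul_add, mul_add, e1, e2, two_smul]
      abel
    rw [this, h2, zero_smul, add_zero] at hch
    exact hch
  have h5 : A * A * (A * A) + 1 = 0 := by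
    have := congrArg (fun M => A * A * M) h4
    simp only [mul_add, mul_zero] at this
    have e3 : A * A * (dual4 A * dual4 A) = 1 := by
      calc A * A * (dual4 A * dual4 A) = A * (A * dual4 A) * dual4 A := by simp only [mul_assoc]
        _ = 1 := by rw [e2, mul_one, e2]
    rwa [e3] at this
  have h6 : A ^ 4 = A * A * (A * A) := by
    simp only [pow_succ, pow_zero, one_mul, mul_assoc]
  rw [h6]
  have h7 : A * A * (A * A) = -1 := eq_neg_of_add_eq_zero_left h5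
  rw [h7]
  have : (-1 : Matrix (Fin 4) (Fin 4) F) = 1 + (-(2 : F)) • (1 : Matrix (Fin 4) (Fin 4) F) := by
    rw [neg_smul, two_smul]; abel
  rw [this, h2, neg_zero, zero_smul, add_zero]

/-- the defining property of the elements of `Sz` -/
theorem sz_prop [CharP F 2] (k : ℕ) {g : GL (Fin 4) F} (hg : g ∈ Sz F (2 ^ k)) :
    g ∈ Sp4 F ∧ star4 (g : Matrix (Fin 4) (Fin 4) F) = (g : Matrix (Fin 4) (Fin 4) F).map (fun x => x ^ 2 ^ k) := by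
  haveI : Fact (Nat.Prime 2) := ⟨Nat.prime_two⟩
  have hmap : ∀ A B : Matrix (Fin 4) (Fin 4) F, (A * B).map (fun x => x ^ 2 ^ k) =
      A.map (fun x => x ^ 2 ^ k) * B.map (fun x => x ^ 2 ^ k) := by
    intro A B
    have h : (fun x : F => x ^ 2 ^ k) = ⇑(iterateFrobenius F 2 k) := by
      funext x; rw [iterateFrobenius_def]
    rw [h]
    exact Matrix.map_mul
  have hone : (1 : Matrix (Fin 4) (Fin 4) F).map (fun x => x ^ 2 ^ k) = 1 := by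
    apply Matrix.map_one
    · exact zero_pow (pow_pos (by norm_num) k).ne'
    · exact one_pow _
  unfold Sz at hg
  induction hg using Subgroup.closure_induction with
  | mem x hx => exact hx
  | one => exact ⟨(Sp4 F).one_mem, by rw [Units.val_one, star4_one, hone]⟩
  | mul x y _ _ hx hy =>
    refine ⟨(Sp4 F).mul_mem hx.1 hy.1, ?_⟩
    rw [Units.val_mul, star4_mul (isSp_of_mem hx.1) (isSp_of_mem hy.1), hmap, hx.2, hy.2]
  | inv x _ hx =>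
    have hxi := (Sp4 F).inv_mem hx.1
    refine ⟨hxi, ?_⟩
    have e1 : star4 (x⁻¹ : GL (Fin 4) F).val * star4 x.val = 1 := by
      rw [← star4_mul (isSp_of_mem hxi) (isSp_of_mem hx.1), ← Units.val_mul, inv_mul_cancel, Units.val_one,
        star4_one]
    have e2 : x.val.map (fun x => x ^ 2 ^ k) * (x⁻¹ : GL (Fin 4) F).val.map (fun x => x ^ 2 ^ k) = 1 := by
      rw [← hmap, ← Units.val_mul, mul_inv_cancel, Units.val_one, hone]
    calc star4 (x⁻¹ : GL (Fin 4) F).val = star4 (x⁻¹ : GL (Fin 4) F).val *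
          (x.val.map (fun x => x ^ 2 ^ k) * (x⁻¹ : GL (Fin 4) F).val.map (fun x => x ^ 2 ^ k)) := by
            rw [e2, mul_one]
      _ = (star4 (x⁻¹ : GL (Fin 4) F).val * star4 x.val) * (x⁻¹ : GL (Fin 4) F).val.map (fun x => x ^ 2 ^ k) := by
            rw [hx.2, mul_assoc]
      _ = _ := by rw [e1, one_mul]

theorem sz_pow_four_of_fixed [CharP F 2] (k : ℕ) {g : GL (Fin 4) F} (hg : g ∈ Sz F (2 ^ k))
    (v : Fin 4 → F) (hv : v ≠ 0) (hgv : (g : Matrix (Fin 4) (Fin 4) F) *ᵥ v = v) : g ^ 4 = 1 := by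
  obtain ⟨h1, h2⟩ := sz_prop k hg
  apply Units.ext
  rw [Units.val_pow_eq_pow_val, Units.val_one]
  exact pow_four_eq_one_of_fixed k (isSp_of_mem h1) h2 v hv hgv

end Cfsg.Agent.Lib.Helper19
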