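import Mathlib
import Cfsg.Agent.Lib.Helper19.ThreePrimes

/-! Independent sets of the prime graph and solvable normal subgroups. -/

set_option autoImplicit false

namespace Cfsg.Agent.Lib.Helper19

open scoped commutatorElement

/-- two primes dividing an abelian section are adjacent -/
theorem adj_of_abelian_section {G : Type*} [Group G] [Finite G] (A B : Subgroup G) [B.Normal]
    (hAB : ⁅A, A⁆ ≤ B) (a b : ℕ) (ha : a.Prime) (hb : b.Prime) (hab : a ≠ b)
    (haA : a ∣ Nat.card A) (hbA : b ∣ Nat.card A) (haB : ¬ a ∣ Nat.card B) (hbB : ¬ b ∣ Nat.card B) :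
    ∃ x : G, orderOf x = a * b := by
  haveI := Fact.mk ha
  haveI := Fact.mk hb
  obtain ⟨x, hx⟩ := exists_prime_orderOf_dvd_card' a haA
  obtain ⟨y, hy⟩ := exists_prime_orderOf_dvd_card' b hbA
  have hx' : orderOf x.1 = a := by rw [Subgroup.orderOf_coe, hx]
  have hy' : orderOf y.1 = b := by rw [Subgroup.orderOf_coe, hy]
  have hxB : x.1 ∉ B := by
    intro h
    apply haB
    have := orderOf_dvd_natCard (⟨x.1, h⟩ : B)
    rwa [← Subgroup.orderOf_coe, hx'] at this
  have hyB : y.1 ∉ B := by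
    intro h
    apply hbB
    have := orderOf_dvd_natCard (⟨y.1, h⟩ : B)
    rwa [← Subgroup.orderOf_coe, hy'] at this
  let π := QuotientGroup.mk' B
  have hπx : orderOf (π x.1) = a := by
    apply orderOf_eq_prime
    · rw [← map_pow, ← hx', pow_orderOf_eq_one, map_one]
    · intro h
      exact hxB ((QuotientGroup.eq_one_iff _).mp h)
  have hπy : orderOf (π y.1) = b := by
    apply orderOf_eq_prime
    · rw [← map_pow, ← hy', pow_orderOf_eq_one, map_one]
    · intro h
      exact hyB ((QuotientGroup.eq_one_iff _).mp h)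
  have hcomm : Commute (π x.1) (π y.1) := by
    have h1 : ⁅x.1, y.1⁆ ∈ B := hAB (Subgroup.commutator_mem_commutator x.2 y.2)
    have h2 : π ⁅x.1, y.1⁆ = 1 := (QuotientGroup.eq_one_iff _).mpr h1
    rw [map_commutatorElement, commutatorElement_eq_one_iff_commute] at h2
    exact h2
  have h3 : orderOf (π (x.1 * y.1)) = a * b := by
    rw [map_mul, hcomm.orderOf_mul_eq_mul_orderOf_of_coprime, hπx, hπy]
    rw [hπx, hπy]
    exact (Nat.coprime_primes ha hb).mpr hab
  have h4 : a * b ∣ orderOf (x.1 * y.1) := h3 ▸ orderOf_map_dvd π (x.1 * y.1)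
  exact ⟨_, orderOf_pow_orderOf_div (orderOf_pos _).ne' h4⟩

theorem chain_three {G : Type*} [Group G] [Finite G] (C : ℕ → Subgroup G) (hn : ∀ i, (C i).Normal)
    (ha : Antitone C) (hc : ∀ i, 1 ≤ i → ⁅C i, C i⁆ ≤ C (i + 1)) (he : ∃ n, C n = ⊥)
    (r s t : ℕ) (hr : r.Prime) (hs : s.Prime) (ht : t.Prime) (hrs : r ≠ s) (hrt : r ≠ t) (hst : s ≠ t)
    (hr1 : r ∣ Nat.card (C 1)) (hs1 : s ∣ Nat.card (C 1)) (ht0 : t ∣ Nat.card (C 0)) :
    (∃ x : G, orderOf x = r * s) ∨ (∃ x : G, orderOf x = r * t) ∨ (∃ x : G, orderOf x = s * t) := by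
  classical
  obtain ⟨n, hn0⟩ := he
  let ν : ℕ → ℕ := fun a => sInf {i | ¬ a ∣ Nat.card (C i)}
  have hne : ∀ a : ℕ, a.Prime → {i | ¬ a ∣ Nat.card (C i)}.Nonempty := by
    intro a ha'
    refine ⟨n, ?_⟩
    show ¬ a ∣ Nat.card (C n)
    rw [hn0, Subgroup.card_bot]
    exact ha'.one_lt.ne' ∘ Nat.dvd_one.mp
  have hν1 : ∀ a : ℕ, a.Prime → ∀ i, ν a ≤ i → ¬ a ∣ Nat.card (C i) := by
    intro a ha' i hi h
    have h1 : ¬ a ∣ Nat.card (C (ν a)) := Nat.sInf_mem (hne a ha')
    exact h1 (h.trans (Subgroup.card_dvd_of_le (ha hi)))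
  have hν2 : ∀ a : ℕ, ∀ i, i < ν a → a ∣ Nat.card (C i) := by
    intro a i hi
    by_contra h
    exact Nat.notMem_of_lt_sInf hi h
  have hsame : ∀ a b : ℕ, a.Prime → b.Prime → a ≠ b → 2 ≤ ν a → ν a = ν b → ∃ x : G, orderOf x = a * b := by
    intro a b ha' hb' hab h2 heq
    obtain ⟨i, hi⟩ : ∃ i, ν a = i + 1 := ⟨ν a - 1, by omega⟩
    haveI := hn (i + 1)
    exact adj_of_abelian_section (C i) (C (i + 1)) (hc i (by omega)) a b ha' hb' hab
      (hν2 a i (by omega)) (hν2 b i (by omega)) (hν1 a ha' _ (by omega)) (hν1 b hb' _ (by omega))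
  have hord : ∀ a b c : ℕ, a.Prime → b.Prime → c.Prime → a ≠ b → a ≠ c → b ≠ c → 1 ≤ ν c → ν c < ν b →
      ν b < ν a → (∃ x : G, orderOf x = a * b) ∨ (∃ x : G, orderOf x = a * c) ∨ (∃ x : G, orderOf x = b * c) := by
    intro a b c ha' hb' hc' hab hac hbc h1 h2 h3
    haveI := hn (ν a - 1)
    haveI := hn (ν b - 1)
    have hle : C (ν a - 1) ≤ C (ν b - 1) := ha (by omega)
    apply three_primes (C (ν a - 1)) (C (ν b - 1)) hle a b c ha' hb' hc' hab hac hbc (hν2 a _ (by omega))
    · have e := relIndex_mul_card_of_le hle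
      have h4 : b ∣ (C (ν a - 1)).relIndex (C (ν b - 1)) * Nat.card (C (ν a - 1)) := by
        rw [e]; exact hν2 b _ (by omega)
      exact (hb'.dvd_mul.mp h4).resolve_right (hν1 b hb' _ (by omega))
    · have e := (C (ν b - 1)).index_mul_card
      have h4 : c ∣ (C (ν b - 1)).index * Nat.card (C (ν b - 1)) := by
        rw [e]
        exact (hν2 c 0 (by omega)).trans (Subgroup.card_subgroup_dvd_card _)
      exact (hc'.dvd_mul.mp h4).resolve_right (hν1 c hc' _ (by omega))
  have hνr : 2 ≤ ν r := by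
    by_contra h
    exact hν1 r hr 1 (by omega) hr1
  have hνs : 2 ≤ ν s := by
    by_contra h
    exact hν1 s hs 1 (by omega) hs1
  have hνt : 1 ≤ ν t := by
    by_contra h
    exact hν1 t ht 0 (by omega) ht0
  have sw : ∀ a b : ℕ, (∃ x : G, orderOf x = a * b) → ∃ x : G, orderOf x = b * a := by
    intro a b ⟨x, hx⟩
    exact ⟨x, by rw [hx, mul_comm]⟩
  rcases lt_trichotomy (ν r) (ν s) with h1 | h1 | h1
  · rcases lt_trichotomy (ν s) (ν t) with h2 | h2 | h2
    · -- r < s < t
      rcases hord t s r ht hs hr hst.symm hrt.symm hrs.symm (by omega) h1 h2 with h | h | h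
      · exact Or.inr (Or.inr (sw _ _ h))
      · exact Or.inr (Or.inl (sw _ _ h))
      · exact Or.inl (sw _ _ h)
    · exact Or.inr (Or.inr (hsame s t hs ht hst hνs h2))
    · rcases lt_trichotomy (ν r) (ν t) with h3 | h3 | h3
      · -- r < t < s
        rcases hord s t r hs ht hr hst hrs.symm hrt.symm (by omega) h3 h2 with h | h | h
        · exact Or.inr (Or.inr h)
        · exact Or.inl (sw _ _ h)
        · exact Or.inr (Or.inl (sw _ _ h))
      · exact Or.inr (Or.inl (hsame r t hr ht hrt hνr h3))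
      · -- t < r < s
        rcases hord s r t hs hr ht hrs.symm hst hrt hνt h3 h1 with h | h | h
        · exact Or.inl (sw _ _ h)
        · exact Or.inr (Or.inr h)
        · exact Or.inr (Or.inl h)
  · exact Or.inl (hsame r s hr hs hrs hνr h1)
  · rcases lt_trichotomy (ν r) (ν t) with h2 | h2 | h2
    · -- s < r < t
      rcases hord t r s ht hr hs hrt.symm hst.symm hrs (by omega) h1 h2 with h | h | h
      · exact Or.inr (Or.inl (sw _ _ h))
      · exact Or.inr (Or.inr (sw _ _ h))
      · exact Or.inl h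
    · exact Or.inr (Or.inl (hsame r t hr ht hrt hνr h2))
    · rcases lt_trichotomy (ν s) (ν t) with h3 | h3 | h3
      · -- s < t < r
        rcases hord r t s hr ht hs hrt hrs hst.symm (by omega) h3 h2 with h | h | h
        · exact Or.inr (Or.inl h)
        · exact Or.inl h
        · exact Or.inr (Or.inr (sw _ _ h))
      · exact Or.inr (Or.inr (hsame s t hs ht hst hνs h3))
      · -- t < s < r
        rcases hord r s t hr hs ht hrs hrt hst hνt h3 h1 with h | h | h
        · exact Or.inl h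
        · exact Or.inr (Or.inl h)
        · exact Or.inr (Or.inr h)

theorem solv_two_primes {G : Type*} [Group G] [Finite G] (K : Subgroup G) [K.Normal]
    (hK : Group.IsSolvable K)
    (r s t : ℕ) (hr : r.Prime) (hs : s.Prime) (ht : t.Prime) (hrs : r ≠ s) (hrt : r ≠ t) (hst : s ≠ t)
    (hr1 : r ∣ Nat.card K) (hs1 : s ∣ Nat.card K) (ht0 : t ∣ Nat.card G) :
    (∃ x : G, orderOf x = r * s) ∨ (∃ x : G, orderOf x = r * t) ∨ (∃ x : G, orderOf x = s * t) := by
  let C : ℕ → Subgroup G := fun i => match i with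
    | 0 => ⊤
    | i + 1 => (derivedSeries K i).map K.subtype
  have hC1 : C 1 = K := by
    show (derivedSeries K 0).map K.subtype = K
    rw [derivedSeries_zero, ← MonoidHom.range_eq_map, Subgroup.range_subtype]
  apply chain_three C _ _ _ _ r s t hr hs ht hrs hrt hst (by rw [hC1]; exact hr1) (by rw [hC1]; exact hs1)
    (by show t ∣ Nat.card (⊤ : Subgroup G); rw [Subgroup.card_top]; exact ht0)
  · intro i
    cases i with
    | zero => exact (inferInstance : (⊤ : Subgroup G).Normal)
    | succ i => exact ConjAct.normal_of_characteristic_of_normal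
  · apply antitone_nat_of_succ_le
    intro i
    cases i with
    | zero => exact le_top
    | succ i => exact Subgroup.map_mono (derivedSeries_antitone K (Nat.le_succ i))
  · intro i hi
    obtain ⟨j, rfl⟩ : ∃ j, i = j + 1 := ⟨i - 1, by omega⟩
    show ⁅(derivedSeries K j).map K.subtype, (derivedSeries K j).map K.subtype⁆ ≤
      (derivedSeries K (j + 1)).map K.subtype
    rw [derivedSeries_succ, Subgroup.map_commutator]
  · obtain ⟨n, hn⟩ := hK.solvable
    exact ⟨n + 1, by show (derivedSeries K n).map K.subtype = ⊥; rw [hn, Subgroup.map_bot]⟩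

end Cfsg.Agent.Lib.Helper19
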